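import Cfsg.Agent.Lib.RudvalisSylow.Defs
import Cfsg.Agent.Lib.Fischer2.LargeExtraspecial

/-!
From the hypotheses on the upper central series to the configuration.
-/

set_option autoImplicit false
set_option linter.unusedSectionVars false
set_option linter.style.haveILetI false

namespace CfsgLib.RudvalisSylow

open Subgroup
open scoped commutatorElement

section Group

variable {P : Type*} [Group P] [Finite P] (hP : IsPGroup 2 P)
  (h14 : 2 ^ 14 ≤ Nat.card P) (h4 : Nat.card ↥(Subgroup.upperCentralSeries P 4) = 16)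

theorem exists_series_step {K : Subgroup P} [K.Normal] [Group.IsNilpotent P] {i : ℕ}
    (h : ¬ K ≤ Subgroup.upperCentralSeries P i) :
    ∃ x ∈ K, x ∉ Subgroup.upperCentralSeries P i ∧ x ∈ Subgroup.upperCentralSeries P (i + 1) := by
  classical
  have hex : ∃ m, ¬ (K ⊓ Subgroup.upperCentralSeries P m ≤ Subgroup.upperCentralSeries P i) := by
    obtain ⟨n, hn⟩ := Group.IsNilpotent.nilpotent' (G := P)
    exact ⟨n, by rw [hn, inf_top_eq]; exact h⟩
  obtain ⟨x, hx, hxi⟩ := SetLike.not_le_iff_exists.1 (Nat.find_spec hex)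
  have hpos : Nat.find hex ≠ 0 := by
    intro e
    apply Nat.find_spec hex
    rw [e, Subgroup.upperCentralSeries_zero, inf_bot_eq]
    exact bot_le
  obtain ⟨m, hm⟩ := Nat.exists_eq_succ_of_ne_zero hpos
  have hmin : K ⊓ Subgroup.upperCentralSeries P m ≤ Subgroup.upperCentralSeries P i := by
    by_contra hc
    exact Nat.find_min hex (by omega : m < Nat.find hex) hc
  refine ⟨x, hx.1, hxi, (Subgroup.mem_upperCentralSeries_succ_iff).2 fun y => hmin ⟨?_, ?_⟩⟩
  · show x * y * x⁻¹ * y⁻¹ ∈ K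
    rw [show x * y * x⁻¹ * y⁻¹ = x * (y * x⁻¹ * y⁻¹) by group]
    exact K.mul_mem hx.1 (‹K.Normal›.conj_mem _ (K.inv_mem hx.1) y)
  · have := hx.2
    rw [hm] at this
    exact Subgroup.mem_upperCentralSeries_succ_iff.1 this y

include h14 h4 hP

theorem card_series : ∀ k ≤ 4, Nat.card ↥(Subgroup.upperCentralSeries P k) = 2 ^ k := by
  haveI := hP.isNilpotent
  have hlt : ∀ k < 4, 2 * Nat.card ↥(Subgroup.upperCentralSeries P k) ≤
      Nat.card ↥(Subgroup.upperCentralSeries P (k + 1)) := by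
    intro k hk
    have hne : ¬ (⊤ : Subgroup P) ≤ Subgroup.upperCentralSeries P k := by
      intro hc
      have h1 := Subgroup.card_le_of_le (Subgroup.upperCentralSeries_mono P hk.le)
      rw [top_le_iff.1 hc, Subgroup.card_top, h4] at h1
      omega
    obtain ⟨x, -, hx, hx'⟩ := exists_series_step (K := (⊤ : Subgroup P)) hne
    have hle := Subgroup.upperCentralSeries_mono P (Nat.le_succ k)
    obtain ⟨c, hc⟩ := Subgroup.card_dvd_of_le hle
    have hne' : Nat.card ↥(Subgroup.upperCentralSeries P k) ≠ Nat.card ↥(Subgroup.upperCentralSeries P (k + 1)) :=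
      fun e => hx (Subgroup.eq_of_le_of_card_ge hle e.ge ▸ hx')
    rw [hc] at hne' ⊢
    rcases c with _ | _ | c
    · rw [mul_zero] at hc; exact absurd hc Nat.card_pos.ne'
    · simp at hne'
    · rw [mul_comm 2]; exact Nat.mul_le_mul_left _ (by omega)
  have h0 : Nat.card ↥(Subgroup.upperCentralSeries P 0) = 1 := by
    rw [Subgroup.upperCentralSeries_zero, Subgroup.card_bot]
  have a := hlt 0 (by norm_num); have b := hlt 1 (by norm_num)
  have c := hlt 2 (by norm_num); have d := hlt 3 (by norm_num)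
  intro k hk
  interval_cases k <;> simp only [zero_add, Nat.reduceAdd, Nat.reducePow] at a b c d ⊢ <;> omega

theorem le_series {K : Subgroup P} [K.Normal] {k : ℕ} (hk : k ≤ 4) (hK : Nat.card ↥K ≤ 2 ^ k) :
    K ≤ Subgroup.upperCentralSeries P k := by
  haveI := hP.isNilpotent
  have key : ∀ i ≤ k, K ≤ Subgroup.upperCentralSeries P i ∨
      2 ^ i ≤ Nat.card ↥(K ⊓ Subgroup.upperCentralSeries P i) := by
    intro i
    induction i with
    | zero =>
      intro _; right
      simp only [pow_zero]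
      exact Nat.card_pos
    | succ i ih =>
      intro hi
      by_cases hle : K ≤ Subgroup.upperCentralSeries P i
      · exact Or.inl (hle.trans (Subgroup.upperCentralSeries_mono P (Nat.le_succ i)))
      right
      obtain ⟨x, hx, hxi, hxi'⟩ := exists_series_step hle
      have h1 : K ⊓ Subgroup.upperCentralSeries P i ≤ K ⊓ Subgroup.upperCentralSeries P (i + 1) :=
        inf_le_inf_left _ (Subgroup.upperCentralSeries_mono P (Nat.le_succ i))
      obtain ⟨c, hc⟩ := Subgroup.card_dvd_of_le h1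
      have hne : Nat.card ↥(K ⊓ Subgroup.upperCentralSeries P i) ≠ Nat.card ↥(K ⊓ Subgroup.upperCentralSeries P (i + 1)) :=
        fun e => hxi ((Subgroup.eq_of_le_of_card_ge h1 e.ge).ge ⟨hx, hxi'⟩).2
      have h2 := (ih (by omega)).resolve_left hle
      rw [hc] at hne ⊢
      rcases c with _ | _ | c
      · rw [mul_zero] at hc; exact absurd hc Nat.card_pos.ne'
      · simp at hne
      · rw [pow_succ]; exact Nat.mul_le_mul h2 (by omega)
  rcases key k le_rfl with h | h
  · exact h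
  · have := Subgroup.eq_of_le_of_card_ge (inf_le_left : K ⊓ Subgroup.upperCentralSeries P k ≤ K) (hK.trans h)
    exact this ▸ inf_le_right

theorem index_centralizer_le :
    (centralizer ((Subgroup.upperCentralSeries P 3 : Subgroup P) : Set P)).index ≤ 8 := by
  have hc := card_series hP h14 h4
  obtain ⟨x2, hx2, hx2'⟩ : ∃ x ∈ Subgroup.upperCentralSeries P 2, x ∉ Subgroup.upperCentralSeries P 1 :=
    SetLike.not_le_iff_exists.1 fun h => by
      have := Subgroup.card_le_of_le h; rw [hc 2 (by norm_num), hc 1 (by norm_num)] at this; omega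
  obtain ⟨x3, hx3, hx3'⟩ : ∃ x ∈ Subgroup.upperCentralSeries P 3, x ∉ Subgroup.upperCentralSeries P 2 :=
    SetLike.not_le_iff_exists.1 fun h => by
      have := Subgroup.card_le_of_le h; rw [hc 3 (by norm_num), hc 2 (by norm_num)] at this; omega
  set Z := Subgroup.upperCentralSeries P 3
  let f : P ⧸ centralizer (Z : Set P) → ↥(Subgroup.upperCentralSeries P 1) × ↥(Subgroup.upperCentralSeries P 2) := fun q =>
    (⟨x2 * q.out * x2⁻¹ * q.out⁻¹, Subgroup.mem_upperCentralSeries_succ_iff.1 hx2 _⟩,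
     ⟨x3 * q.out * x3⁻¹ * q.out⁻¹, Subgroup.mem_upperCentralSeries_succ_iff.1 hx3 _⟩)
  have hf : Function.Injective f := by
    intro p q e
    simp only [f, Prod.mk.injEq, Subtype.mk.injEq] at e
    rw [← QuotientGroup.out_eq' p, ← QuotientGroup.out_eq' q, QuotientGroup.eq]
    set a := p.out; set b := q.out
    let C : Subgroup P := centralizer ({a⁻¹ * b} : Set P)
    have hcomm : ∀ x, x * a * x⁻¹ * a⁻¹ = x * b * x⁻¹ * b⁻¹ → x ∈ C := by
      intro x ex
      rw [mem_centralizer_singleton_iff]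
      have e1 : a * x⁻¹ * a⁻¹ = b * x⁻¹ * b⁻¹ := by
        calc a * x⁻¹ * a⁻¹ = x⁻¹ * (x * a * x⁻¹ * a⁻¹) := by group
          _ = b * x⁻¹ * b⁻¹ := by rw [ex]; group
      calc x * (a⁻¹ * b) = a⁻¹ * (a * x⁻¹ * a⁻¹)⁻¹ * b := by group
        _ = a⁻¹ * b * x := by rw [e1]; group
    have h1 : Subgroup.upperCentralSeries P 1 ≤ C := fun x hx => mem_centralizer_singleton_iff.2 (by
      rw [Subgroup.upperCentralSeries_one] at hx
      exact (mem_center_iff.1 hx _).symm)
    have h2 : Subgroup.upperCentralSeries P 2 ≤ C := by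
      have hle : Subgroup.upperCentralSeries P 2 ⊓ C ≤ Subgroup.upperCentralSeries P 2 := inf_le_left
      have hsub : Subgroup.upperCentralSeries P 1 ≤ Subgroup.upperCentralSeries P 2 ⊓ C :=
        le_inf (Subgroup.upperCentralSeries_mono P (by norm_num)) h1
      obtain ⟨c, hc'⟩ := Subgroup.card_dvd_of_le hsub
      have hne : Nat.card ↥(Subgroup.upperCentralSeries P 1) ≠ Nat.card ↥(Subgroup.upperCentralSeries P 2 ⊓ C) :=
        fun e' => hx2' ((Subgroup.eq_of_le_of_card_ge hsub e'.ge).ge ⟨hx2, hcomm x2 e.1⟩)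
      have := Subgroup.eq_of_le_of_card_ge hle (by
        rw [hc 2 (by norm_num)]
        rw [hc 1 (by norm_num)] at hc' hne
        have hpos : 0 < Nat.card ↥(Subgroup.upperCentralSeries P 2 ⊓ C) := Nat.card_pos
        omega)
      exact this ▸ inf_le_right
    have h3 : Z ≤ C := by
      have hle : Z ⊓ C ≤ Z := inf_le_left
      have hsub : Subgroup.upperCentralSeries P 2 ≤ Z ⊓ C :=
        le_inf (Subgroup.upperCentralSeries_mono P (by norm_num)) h2
      obtain ⟨c, hc'⟩ := Subgroup.card_dvd_of_le hsub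
      have hne : Nat.card ↥(Subgroup.upperCentralSeries P 2) ≠ Nat.card ↥(Z ⊓ C) :=
        fun e' => hx3' ((Subgroup.eq_of_le_of_card_ge hsub e'.ge).ge ⟨hx3, hcomm x3 e.2⟩)
      have := Subgroup.eq_of_le_of_card_ge hle (by
        rw [hc 3 (by norm_num)]
        rw [hc 2 (by norm_num)] at hc' hne
        have hpos : 0 < Nat.card ↥(Z ⊓ C) := Nat.card_pos
        omega)
      exact this ▸ inf_le_right
    exact mem_centralizer_iff.2 fun z hz => mem_centralizer_singleton_iff.1 (h3 hz)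
  have := Nat.card_le_card_of_injective f hf
  rw [Nat.card_prod, hc 1 (by norm_num), hc 2 (by norm_num)] at this
  exact this

/-- Size of `W` and its Frattini subgroup. -/
theorem structure_W {W F : Subgroup P} [W.Normal] [F.Normal]
    (hW : W = centralizer ((Subgroup.upperCentralSeries P 3 : Subgroup P) : Set P))
    (hFW : F ≤ W) (hF : Nat.card ↥F ≤ 8) (hsq : ∀ w ∈ W, w * w ∈ F) :
    F = Subgroup.upperCentralSeries P 3 ∧ Nat.card ↥W = 2 ^ 11 ∧ Nat.card P = 2 ^ 14 ∧
      ∃ w₀ ∈ W, w₀ ∉ F ∧ (∀ t, t * w₀ * t⁻¹ * w₀⁻¹ ∈ F) ∧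
        ∀ w ∈ W, (∀ t, t * w * t⁻¹ * w⁻¹ ∈ F) → w ∈ F ∨ w₀⁻¹ * w ∈ F := by
  classical
  haveI := hP.isNilpotent
  have hc := card_series hP h14 h4
  have hidx := index_centralizer_le hP h14 h4
  rw [← hW] at hidx
  have hPW := W.card_mul_index
  have hWbig : 2 ^ 11 ≤ Nat.card ↥W := by
    have := Nat.mul_le_mul_left (Nat.card ↥W) hidx
    omega
  haveI : Fact (Nat.Prime 2) := ⟨Nat.prime_two⟩
  obtain ⟨k, hk⟩ := (hP.to_subgroup F).exists_card_eq
  have hk3 : k ≤ 3 := by
    rw [hk] at hF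
    exact (Nat.pow_le_pow_iff_right (a := 2) (by norm_num)).1 (by simpa using hF)
  have hFk : F = Subgroup.upperCentralSeries P k :=
    Subgroup.eq_of_le_of_card_ge (le_series hP h14 h4 (by omega) hk.le) (by rw [hc k (by omega), hk])
  have fixed_mem : ∀ w, (∀ t, t * w * t⁻¹ * w⁻¹ ∈ F) → w ∈ Subgroup.upperCentralSeries P (k + 1) := by
    intro w h
    refine Subgroup.mem_upperCentralSeries_succ_iff.2 fun y => ?_
    show w * y * w⁻¹ * y⁻¹ ∈ Subgroup.upperCentralSeries P k
    rw [← hFk, show w * y * w⁻¹ * y⁻¹ = (y * w * y⁻¹ * w⁻¹)⁻¹ by group]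
    exact F.inv_mem (h y)
  have hnot : ¬ W ≤ Subgroup.upperCentralSeries P k := fun h => by
    have := Subgroup.card_le_of_le h
    rw [hc k (by omega)] at this
    have : (2 : ℕ) ^ k ≤ 2 ^ 3 := Nat.pow_le_pow_right (by norm_num) hk3
    omega
  obtain ⟨x0, hx0W, hx0F, hx0Z⟩ := exists_series_step hnot
  rw [← hFk] at hx0F
  have two_cosets : ∀ w ∈ Subgroup.upperCentralSeries P (k + 1), w ∈ F ∨ x0⁻¹ * w ∈ F := by
    intro w hw
    by_contra hcon
    push Not at hcon
    let f : Fin 3 × ↥F → ↥(Subgroup.upperCentralSeries P (k + 1)) := fun p =>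
      ⟨![1, x0, w] p.1 * p.2, mul_mem (by
        obtain ⟨i, -⟩ := p
        fin_cases i <;> simp [one_mem, hx0Z, hw]) (Subgroup.upperCentralSeries_mono P (Nat.le_succ k) (hFk ▸ p.2.2))⟩
    have hf : Function.Injective f := by
      rintro ⟨i, a, ha⟩ ⟨j, b, hb⟩ e
      simp only [f, Subtype.mk.injEq] at e
      have key : ∀ u v : P, u * a = v * b → v⁻¹ * u ∈ F := fun u v e' => by
        rw [show v⁻¹ * u = v⁻¹ * (u * a) * a⁻¹ by group, e', inv_mul_cancel_left]
        exact F.mul_mem hb (F.inv_mem ha)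
      have hij : i = j := by
        by_contra hne
        fin_cases i <;> fin_cases j
        all_goals first
          | exact hne rfl
          | (have := key _ _ e; simp at this; first
              | exact hx0F this
              | exact hcon.1 this
              | exact hcon.2 this
              | (have := F.inv_mem this; simp at this; exact hcon.2 this))
      subst hij
      exact Prod.ext rfl (Subtype.ext (mul_left_cancel e))
    have := Nat.card_le_card_of_injective f hf
    rw [Nat.card_prod, Nat.card_eq_fintype_card (α := Fin 3), Fintype.card_fin, hk,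
      hc (k + 1) (by omega), pow_succ] at this
    have : 0 < 2 ^ k := by positivity
    omega
  obtain ⟨M, hFM, hMW, hxM, hMd⟩ := exists_two_avoid hFW hsq hx0W hx0F
  have hconj : ∀ t, ∀ w ∈ W, t * w * t⁻¹ ∈ W := fun t w hw => ‹W.Normal›.conj_mem w hw t
  have hWcomm : ∀ v ∈ W, ∀ w ∈ W, v * w * v⁻¹ * w⁻¹ ∈ F := fun v hv w hw => by
    rw [show v * w * v⁻¹ * w⁻¹ = (v * v) * ((v⁻¹ * w) * (v⁻¹ * w)) * (w⁻¹ * w⁻¹) by group]
    exact F.mul_mem (F.mul_mem (hsq v hv) (hsq _ (W.mul_mem (W.inv_mem hv) hw))) (hsq _ (W.inv_mem hw))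
  let K : Subgroup P :=
    { carrier := {w | w ∈ W ∧ ∀ t, t * w * t⁻¹ ∈ M}
      one_mem' := ⟨W.one_mem, fun t => by simp⟩
      mul_mem' := fun {a b} ha hb => ⟨W.mul_mem ha.1 hb.1, fun t => by
        rw [show t * (a * b) * t⁻¹ = (t * a * t⁻¹) * (t * b * t⁻¹) by group]
        exact M.mul_mem (ha.2 t) (hb.2 t)⟩
      inv_mem' := fun {a} ha => ⟨W.inv_mem ha.1, fun t => by
        rw [show t * a⁻¹ * t⁻¹ = (t * a * t⁻¹)⁻¹ by group]
        exact M.inv_mem (ha.2 t)⟩ }
  haveI : K.Normal := ⟨fun w hw s => ⟨hconj s w hw.1, fun t => by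
    rw [show t * (s * w * s⁻¹) * t⁻¹ = (t * s) * w * (t * s)⁻¹ by group]
    exact hw.2 (t * s)⟩⟩
  have hKF : K ≤ F := by
    by_contra hc'
    rw [hFk] at hc'
    obtain ⟨x, hxK, hxF, hxZ⟩ := exists_series_step hc'
    rw [← hFk] at hxF
    have h1 := (two_cosets x hxZ).resolve_left hxF
    apply hxM
    have h2 : x ∈ M := by simpa using hxK.2 1
    rw [show x0 = x * (x0⁻¹ * x)⁻¹ by group]
    exact M.mul_mem h2 (M.inv_mem (hFM h1))
  let ι : ↥W ⧸ F.subgroupOf W → (P ⧸ W → Bool) := fun a q =>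
    decide (q.out * (a.out : P) * q.out⁻¹ ∈ M)
  have hι : Function.Injective ι := by
    intro a b e
    rw [← QuotientGroup.out_eq' a, ← QuotientGroup.out_eq' b, QuotientGroup.eq, mem_subgroupOf]
    refine hKF ⟨(a.out⁻¹ * b.out).2, fun t => ?_⟩
    obtain ⟨v, hv⟩ : ∃ v : ↥W, (QuotientGroup.mk t : P ⧸ W).out = t * v :=
      ⟨⟨_, (QuotientGroup.mk_out_eq_mul W t).choose.2⟩, (QuotientGroup.mk_out_eq_mul W t).choose_spec⟩
    have e' := congrFun e (QuotientGroup.mk t)
    simp only [ι, decide_eq_decide, hv] at e'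
    set u := (t * (v : P))
    have hprod : u * ((a.out : P)⁻¹ * b.out) * u⁻¹ ∈ M := by
      rw [show u * ((a.out : P)⁻¹ * b.out) * u⁻¹ = (u * a.out * u⁻¹)⁻¹ * (u * b.out * u⁻¹) by group]
      by_cases hm : u * (a.out : P) * u⁻¹ ∈ M
      · exact M.mul_mem (M.inv_mem hm) (e'.1 hm)
      · have ha' := (hMd _ (hconj u _ a.out.2)).resolve_left hm
        have hb' := (hMd _ (hconj u _ b.out.2)).resolve_left (fun hb => hm (e'.2 hb))
        rw [show (u * (a.out : P) * u⁻¹)⁻¹ * (u * b.out * u⁻¹) =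
          (x0 * (u * a.out * u⁻¹))⁻¹ * (x0 * (u * b.out * u⁻¹)) by group]
        exact M.mul_mem (M.inv_mem ha') hb'
    have hvw : (v : P) * ((a.out : P)⁻¹ * b.out) * (v : P)⁻¹ * ((a.out : P)⁻¹ * b.out)⁻¹ ∈ F :=
      hWcomm _ v.2 _ (a.out⁻¹ * b.out).2
    have h3 := M.mul_mem (M.inv_mem (hFM (‹F.Normal›.conj_mem _ hvw t))) hprod
    show t * ((a.out⁻¹ * b.out : ↥W) : P) * t⁻¹ ∈ M
    convert h3 using 1
    simp only [u, Subgroup.coe_mul, Subgroup.coe_inv]
    group
  have hW1 : Nat.card ↥W ≤ 2 ^ (W.index) * 2 ^ k := by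
    rw [Subgroup.card_eq_card_quotient_mul_card_subgroup (F.subgroupOf W),
      Nat.card_congr (subgroupOfEquivOfLe hFW).toEquiv, hk]
    refine Nat.mul_le_mul_right _ ?_
    have := Nat.card_le_card_of_injective ι hι
    rwa [Nat.card_fun, Nat.card_eq_fintype_card (α := Bool), Fintype.card_bool] at this
  obtain ⟨j, hj⟩ := (hP.to_subgroup W).exists_card_eq
  have hWle : Nat.card ↥W ≤ 2 ^ 11 :=
    hW1.trans (by rw [← pow_add]; exact Nat.pow_le_pow_right (by norm_num) (by omega))
  have hW11 : Nat.card ↥W = 2 ^ 11 := le_antisymm hWle hWbig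
  have hk' : k = 3 := by
    rw [hW11, ← pow_add] at hW1
    have := (Nat.pow_le_pow_iff_right (a := 2) (by norm_num)).1 hW1
    omega
  refine ⟨by rw [hFk, hk'], hW11, ?_, x0, hx0W, hx0F, fun t => ?_, fun w hw h => two_cosets w (fixed_mem w h)⟩
  · rw [← hPW, hW11]
    rw [hW11] at hPW
    omega
  · rw [hFk, show t * x0 * t⁻¹ * x0⁻¹ = (x0 * t * x0⁻¹ * t⁻¹)⁻¹ by group]
    exact inv_mem (Subgroup.mem_upperCentralSeries_succ_iff.1 hx0Z t)

end Group

variable {G : Type*} [Group G] [Finite G]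

theorem setup_of_hyp (T : Sylow 2 G) (ha : 2 ^ 14 ≤ Nat.card ↥(T : Subgroup G))
    (hb : Nat.card ↥(Subgroup.upperCentralSeries ↥(T : Subgroup G) 4) = 16)
    (W : Subgroup ↥(T : Subgroup G))
    (hW : W = centralizer ((Subgroup.upperCentralSeries ↥(T : Subgroup G) 3 : Subgroup ↥(T : Subgroup G)) : Set ↥(T : Subgroup G)))
    (hc : Nat.card ↥(frattini ↥W) ≤ 8) (hd : ∀ U : Subgroup ↥W, U.index ≤ 16 → frattini ↥W ≤ U) :
    Setup T (W.map (T : Subgroup G).subtype)
      (((commutator ↥W).map W.subtype).map (T : Subgroup G).subtype) := by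
  have hP : IsPGroup 2 ↥(T : Subgroup G) := T.isPGroup'
  haveI hWn : W.Normal := by rw [hW]; infer_instance
  let F : Subgroup ↥(T : Subgroup G) := (frattini ↥W).map W.subtype
  haveI : F.Normal := ConjAct.normal_of_characteristic_of_normal
  have hFW : F ≤ W := map_subtype_le _
  have hWP : IsPGroup 2 ↥W := hP.to_subgroup W
  have hsq : ∀ w ∈ W, w * w ∈ F := fun w hw =>
    ⟨⟨w, hw⟩ * ⟨w, hw⟩, by
      have := CfsgLib.Fischer2.sq_mem_frattini hWP (⟨w, hw⟩ : ↥W)
      simpa [pow_two] using this, rfl⟩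
  have hFcard : Nat.card ↥F ≤ 8 := by
    rw [Subgroup.card_map_of_injective W.subtype_injective]; exact hc
  obtain ⟨hF3, hW11, hT14, w₀, hw₀, hw₀F, hfix, huniq⟩ :=
    structure_W hP ha hb hW hFW hFcard hsq
  have hcent : ∀ d ∈ F, ∀ w ∈ W, w * d = d * w := fun d hd w hw => by
    rw [hW] at hw
    exact (mem_centralizer_iff.1 hw d (hF3 ▸ hd)).symm
  have hcomm : ∀ v ∈ W, ∀ w ∈ W, v * w * v⁻¹ * w⁻¹ ∈ F := fun v hv w hw => by
    rw [show v * w * v⁻¹ * w⁻¹ = (v * v) * ((v⁻¹ * w) * (v⁻¹ * w)) * (w⁻¹ * w⁻¹) by group]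
    exact F.mul_mem (F.mul_mem (hsq v hv) (hsq _ (W.mul_mem (W.inv_mem hv) hw))) (hsq _ (W.inv_mem hw))
  set D₀ : Subgroup ↥(T : Subgroup G) := (commutator ↥W).map W.subtype with hD₀
  have hD₀eq : D₀ = ⁅W, W⁆ := by rw [hD₀, commutator_def, map_commutator, ← MonoidHom.range_eq_map, range_subtype]
  have hD₀F : D₀ ≤ F := by
    rw [hD₀eq, commutator_le]
    exact fun v hv w hw => hcomm v hv w hw
  have hsmall : ∀ U : Subgroup ↥(T : Subgroup G), U ≤ W → 2 ^ 7 ≤ Nat.card ↥U → F ≤ U := by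
    intro U hU hcard
    have h := hd (U.subgroupOf W) (by
      have := (U.subgroupOf W).card_mul_index
      rw [Nat.card_congr (subgroupOfEquivOfLe hU).toEquiv, hW11] at this
      by_contra hlt
      push Not at hlt
      have := Nat.mul_le_mul hcard hlt
      norm_num at *
      omega)
    rintro _ ⟨x, hx, rfl⟩
    exact h hx
  have hDF : D₀ = F := by
    haveI : D₀.Normal := by rw [hD₀eq]; infer_instance
    refine le_antisymm hD₀F ?_
    by_contra hlt
    have hD4 : Nat.card ↥D₀ ≤ 2 ^ 2 := by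
      obtain ⟨c, hc'⟩ := Subgroup.card_dvd_of_le hD₀F
      have h8 : Nat.card ↥F = 8 := by rw [hF3, card_series hP ha hb 3 (by norm_num)]; norm_num
      rw [h8] at hc'
      rcases c with _ | _ | c
      · simp at hc'
      · exact absurd (Subgroup.eq_of_le_of_card_ge hD₀F (by rw [h8]; omega)).ge hlt
      · norm_num
        nlinarith [Nat.card_pos (α := ↥D₀)]
    have hD2 := le_series hP ha hb (by norm_num) hD4
    have hc2 := card_series hP ha hb 2 (by norm_num)
    set Z2 := Subgroup.upperCentralSeries ↥(T : Subgroup G) 2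
    have hZ2F : Z2 ≤ F := hF3 ▸ Subgroup.upperCentralSeries_mono _ (by norm_num)
    have hab : ∀ v ∈ W, ∀ w ∈ W, (v * w) * (v * w) * ((v * v) * (w * w))⁻¹ ∈ Z2 := fun v hv w hw => by
      rw [show (v * w) * (v * w) * ((v * v) * (w * w))⁻¹ = v * (w * v * w⁻¹ * v⁻¹) * v⁻¹ by group]
      refine (inferInstance : Z2.Normal).conj_mem _ (hD2 ?_) v
      rw [hD₀eq]; exact commutator_mem_commutator hw hv
    have hZ2W : Z2 ≤ W := hZ2F.trans hFW
    let K : Subgroup ↥(T : Subgroup G) :=
      { carrier := {w | w ∈ W ∧ w * w ∈ Z2}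
        one_mem' := ⟨W.one_mem, by simp⟩
        mul_mem' := fun {a b} ha hb => ⟨W.mul_mem ha.1 hb.1, by
          have := Z2.mul_mem (hab a ha.1 b hb.1) (Z2.mul_mem ha.2 hb.2)
          rwa [inv_mul_cancel_right] at this⟩
        inv_mem' := fun {a} ha => ⟨W.inv_mem ha.1, by
          rw [← mul_inv_rev]; exact Z2.inv_mem ha.2⟩ }
    obtain ⟨d, hdF, hd2⟩ : ∃ d ∈ F, d ∉ Z2 := SetLike.not_le_iff_exists.1 fun h => by
      have := Subgroup.card_le_of_le h
      rw [hc2, hF3, card_series hP ha hb 3 (by norm_num)] at this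
      omega
    have hdd : d * d ∈ Z2 := by
      have h1 : d ∈ Subgroup.upperCentralSeries ↥(T : Subgroup G) 3 := hF3 ▸ hdF
      by_contra hcon
      have hle : Z2 ≤ Subgroup.upperCentralSeries ↥(T : Subgroup G) 3 := Subgroup.upperCentralSeries_mono _ (by norm_num)
      let f : Fin 3 × ↥Z2 → ↥(Subgroup.upperCentralSeries ↥(T : Subgroup G) 3) := fun p =>
        ⟨![1, d, d * d] p.1 * p.2, mul_mem (by
          obtain ⟨i, -⟩ := p
          fin_cases i <;> simp [one_mem, h1, mul_mem h1 h1]) (hle p.2.2)⟩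
      have hf : Function.Injective f := by
        rintro ⟨i, a, ha'⟩ ⟨j, b, hb'⟩ e
        simp only [f, Subtype.mk.injEq] at e
        have key : ∀ u v, u * a = v * b → v⁻¹ * u ∈ Z2 := fun u v e' => by
          rw [show v⁻¹ * u = v⁻¹ * (u * a) * a⁻¹ by group, e', inv_mul_cancel_left]
          exact Z2.mul_mem hb' (Z2.inv_mem ha')
        have hij : i = j := by
          by_contra hne
          fin_cases i <;> fin_cases j
          all_goals first
            | exact hne rfl
            | (have := key _ _ e; simp at this; first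
                | exact hd2 this
                | exact hcon this
                | (have := Z2.inv_mem this; simp at this; first | exact hd2 this | exact hcon this)
                | (rw [← mul_assoc] at this; simp at this; first | exact hd2 this | exact hcon this))
        subst hij
        exact Prod.ext rfl (Subtype.ext (mul_left_cancel e))
      have := Nat.card_le_card_of_injective f hf
      rw [Nat.card_prod, Nat.card_eq_fintype_card (α := Fin 3), Fintype.card_fin, hc2,
        card_series hP ha hb 3 (by norm_num)] at this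
      norm_num at this
    have hdK : d ∈ K := ⟨hFW hdF, hdd⟩
    have hK10 : Nat.card ↥W ≤ 2 * Nat.card ↥K := by
      by_cases hall : ∀ w ∈ W, w ∈ K
      · exact (Subgroup.card_le_of_le hall).trans (by omega)
      push Not at hall
      obtain ⟨v, hv, hvK⟩ := hall
      have hcos : ∀ w ∈ W, w ∈ K ∨ v * w ∈ K := by
        intro w hw
        by_contra hc'
        push Not at hc'
        have hw2 : w * w ∈ F ∧ w * w ∉ Z2 := ⟨hsq w hw, fun h => hc'.1 ⟨hw, h⟩⟩
        have hv2 : v * v ∈ F ∧ v * v ∉ Z2 := ⟨hsq v hv, fun h => hvK ⟨hv, h⟩⟩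
        apply hc'.2
        refine ⟨W.mul_mem hv hw, ?_⟩
        -- two elements outside `Z2` in the group `F` of order eight
        have h1 : (v * v) * (w * w) ∈ Z2 := by
          have hrel : Z2.relIndex F = 2 := by
            have := (Z2.subgroupOf F).card_mul_index
            rw [Nat.card_congr (subgroupOfEquivOfLe hZ2F).toEquiv, hc2, hF3,
              card_series hP ha hb 3 (by norm_num)] at this
            rw [Subgroup.relIndex]
            rw [hF3]
            omega
          have := (Subgroup.mul_mem_iff_of_index_two (H := Z2.subgroupOf F) hrel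
            (a := ⟨v * v, hv2.1⟩) (b := ⟨w * w, hw2.1⟩)).2 (by
              simp [mem_subgroupOf, hv2.2, hw2.2])
          exact mem_subgroupOf.1 this
        have := Z2.mul_mem (hab v hv w hw) h1
        rwa [inv_mul_cancel_right] at this
      let f : Bool × ↥K → ↥W := fun p => ⟨if p.1 then v⁻¹ * p.2 else p.2, by
        obtain ⟨b, k, hk⟩ := p
        cases b
        · exact hk.1
        · exact W.mul_mem (W.inv_mem hv) hk.1⟩
      have hf : Function.Surjective f := by
        rintro ⟨w, hw⟩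
        rcases hcos w hw with h | h
        · exact ⟨(false, ⟨w, h⟩), rfl⟩
        · exact ⟨(true, ⟨v * w, h⟩), Subtype.ext (by simp [f])⟩
      have := Nat.card_le_card_of_surjective f hf
      rwa [Nat.card_prod, Nat.card_eq_fintype_card (α := Bool), Fintype.card_bool] at this
    obtain ⟨M, hZM, hMK, hdM, hMd⟩ := exists_two_avoid
      (show Z2 ≤ K from fun z hz => ⟨hZ2W hz, Z2.mul_mem hz hz⟩) (fun u hu => hu.2) hdK hd2
    have hM9 : Nat.card ↥K ≤ 2 * Nat.card ↥M := by
      let f : Bool × ↥M → ↥K := fun p => ⟨if p.1 then d⁻¹ * p.2 else p.2, by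
        obtain ⟨b, k, hk⟩ := p
        cases b
        · exact hMK hk
        · exact K.mul_mem (K.inv_mem hdK) (hMK hk)⟩
      have hf : Function.Surjective f := by
        rintro ⟨w, hw⟩
        rcases hMd w hw with h | h
        · exact ⟨(false, ⟨w, h⟩), rfl⟩
        · exact ⟨(true, ⟨d * w, h⟩), Subtype.ext (by simp [f])⟩
      have := Nat.card_le_card_of_surjective f hf
      rwa [Nat.card_prod, Nat.card_eq_fintype_card (α := Bool), Fintype.card_bool] at this
    exact hdM (hsmall M (fun x hx => (hMK hx).1) (by rw [hW11] at hK10; omega) hdF)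
  have hsqD : ∀ d ∈ F, d * d = 1 := by
    intro d hd
    rw [← hDF, hD₀eq] at hd
    have hle : ⁅W, W⁆ ≤ F := hD₀eq ▸ hD₀F
    rw [Subgroup.commutator_def] at hd hle
    refine Subgroup.closure_induction (p := fun x _ => x * x = 1) ?_ (one_mul 1) ?_ ?_ hd
    · rintro x ⟨a, ha', b, hb', rfl⟩
      have hab' : a * b * a⁻¹ * b⁻¹ ∈ F := hcomm a ha' b hb'
      have haa : a * a * b = b * (a * a) := (hcent _ (hsq a ha') b hb').symm
      show ⁅a, b⁆ * ⁅a, b⁆ = 1
      rw [commutatorElement_def]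
      set c := a * b * a⁻¹ * b⁻¹ with hc_def
      have hca : c * a = a * c := (hcent _ hab' a ha').symm
      calc c * c = c * a * (b * a⁻¹ * b⁻¹) := by rw [hc_def]; group
        _ = a * c * (b * a⁻¹ * b⁻¹) := by rw [hca]
        _ = a * a * b * (a * a)⁻¹ * b⁻¹ := by rw [hc_def]; group
        _ = 1 := by rw [haa]; group
    · intro x y hx hy ex ey
      calc x * y * (x * y) = x * (y * x) * y := by group
        _ = x * (x * y) * y := by rw [hcent x (hle hx) y (hFW (hle hy))]
        _ = (x * x) * (y * y) := by group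
        _ = 1 := by rw [ex, ey, one_mul]
    · intro x _ ex
      rw [← mul_inv_rev, ex, inv_one]
  refine
    { le := map_subtype_le _
      conj_W := ?_, conj_D := ?_
      card_T := hT14
      card_W := by rw [Subgroup.card_map_of_injective (T : Subgroup G).subtype_injective, hW11]
      card_D := ?_
      D_le := map_mono (hDF ▸ hFW)
      comm_eq := ?_, sq_D := ?_, central := ?_, sq_W := ?_, comm_W := ?_, small := ?_, centT := ?_
      fixed := ?_ }
  · rintro t ht _ ⟨w, hw, rfl⟩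
    exact ⟨⟨t, ht⟩ * w * ⟨t, ht⟩⁻¹, hWn.conj_mem w hw _, by simp⟩
  · rintro t ht _ ⟨w, hw, rfl⟩
    exact ⟨⟨t, ht⟩ * w * ⟨t, ht⟩⁻¹, by rw [hDF] at hw ⊢; exact ‹F.Normal›.conj_mem w hw _, by simp⟩
  · rw [Subgroup.card_map_of_injective (T : Subgroup G).subtype_injective, hDF, hF3,
      card_series hP ha hb 3 (by norm_num)]
    norm_num
  · rw [← map_commutator, ← hD₀eq]
  · rintro _ ⟨d, hd, rfl⟩
    rw [← map_mul, hsqD d (hDF ▸ hd), map_one]
  · rintro _ ⟨d, hd, rfl⟩ _ ⟨w, hw, rfl⟩
    rw [← map_mul, ← map_mul, hcent d (hDF ▸ hd) w hw]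
  · rintro _ ⟨w, hw, rfl⟩
    exact ⟨w * w, hDF ▸ hsq w hw, map_mul _ _ _⟩
  · rintro _ ⟨v, hv, rfl⟩ _ ⟨w, hw, rfl⟩
    exact ⟨_, hDF ▸ hcomm v hv w hw, by simp⟩
  · intro U hU hcard
    have hUT : U ≤ (T : Subgroup G) := hU.trans (map_subtype_le _)
    have h := hsmall (U.subgroupOf (T : Subgroup G)) (fun x hx => by
      obtain ⟨w, hw, e⟩ := hU hx
      exact Subtype.ext e ▸ hw) (by rwa [Nat.card_congr (subgroupOfEquivOfLe hUT).toEquiv])
    rintro _ ⟨d, hd, rfl⟩
    exact h (hDF ▸ hd)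
  · ext x
    constructor
    · rintro ⟨hxT, hxc⟩
      refine ⟨⟨x, hxT⟩, ?_, rfl⟩
      rw [hW, SetLike.mem_coe, mem_centralizer_iff]
      intro z hz
      exact Subtype.ext (mem_centralizer_iff.1 hxc _ ⟨z, by rw [hDF, hF3]; exact hz, rfl⟩)
    · rintro ⟨w, hw, rfl⟩
      refine ⟨w.2, mem_centralizer_iff.2 ?_⟩
      rintro _ ⟨d, hd, rfl⟩
      exact congrArg Subtype.val (hcent d (hDF ▸ hd) w hw).symm
  · refine ⟨w₀, ⟨w₀, hw₀, rfl⟩, ?_, ?_, ?_⟩
    · rintro ⟨d, hd, e⟩
      exact hw₀F (Subtype.ext e ▸ hDF ▸ hd)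
    · intro t ht
      exact ⟨_, hDF ▸ hfix ⟨t, ht⟩, by simp⟩
    · rintro _ ⟨w, hw, rfl⟩ h
      rcases huniq w hw (fun t => by
        obtain ⟨d, hd, e⟩ := h t t.2
        rw [← hDF]
        have e' : d = t * w * t⁻¹ * w⁻¹ := Subtype.ext (by simpa using e)
        exact e' ▸ hd) with h' | h'
      · exact Or.inl ⟨w, hDF ▸ h', rfl⟩
      · exact Or.inr ⟨w₀⁻¹ * w, hDF ▸ h', by simp⟩

end CfsgLib.RudvalisSylow
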