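import Mathlib
import Cfsg.Prelude.Def_CaseTheorems
import Cfsg.Agent.Lib.Cores.PCore
import Cfsg.Agent.Lib.ThompsonJ.SylowTools

/-!
A normal 2-complement when a Sylow 2-subgroup is centralised by its normalizer modulo a central
2-subgroup.
-/

set_option autoImplicit false

namespace CfsgLib.RudvalisSylow

open Subgroup

variable {H : Type*} [Group H] [Finite H]

theorem mem_of_coprime_index' {O : Subgroup H} [O.Normal] {y : H}
    (h : Nat.Coprime (orderOf y) O.index) : y ∈ O := by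
  rw [← QuotientGroup.eq_one_iff, ← orderOf_eq_one_iff]
  exact Nat.eq_one_of_dvd_coprimes h (orderOf_map_dvd (QuotientGroup.mk' O) y)
    (orderOf_dvd_natCard _)

theorem exists_odd_complement (P : Sylow 2 H) {Z : Subgroup H} (hZP : Z ≤ (P : Subgroup H))
    (hcen : Z ≤ center H)
    (hN : ∀ n ∈ normalizer ((P : Subgroup H) : Set H), ∀ a ∈ (P : Subgroup H),
      n * a * n⁻¹ * a⁻¹ ∈ Z) :
    ∃ O : Subgroup H, O.Normal ∧ ¬ 2 ∣ Nat.card ↥O ∧ O ⊔ (P : Subgroup H) = ⊤ := by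
  haveI : Fact (Nat.Prime 2) := ⟨Nat.prime_two⟩
  haveI : Z.Normal := ⟨fun z hz g => by
    rw [(mem_center_iff.1 (hcen hz) g), mul_assoc, mul_inv_cancel, mul_one]; exact hz⟩
  let π := QuotientGroup.mk' Z
  have hπ : Function.Surjective π := QuotientGroup.mk'_surjective Z
  let P' : Sylow 2 (H ⧸ Z) := P.mapSurjective hπ
  have hmem : ∀ x, π x ∈ (P' : Subgroup (H ⧸ Z)) ↔ x ∈ (P : Subgroup H) := by
    intro x
    constructor
    · rintro ⟨a, ha, e⟩
      have : a⁻¹ * x ∈ Z := QuotientGroup.eq.1 e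
      rw [show x = a * (a⁻¹ * x) by group]
      exact mul_mem ha (hZP this)
    · exact fun hx => ⟨x, hx, rfl⟩
  have hNC : normalizer ((P' : Subgroup (H ⧸ Z)) : Set (H ⧸ Z)) ≤
      centralizer ((P' : Subgroup (H ⧸ Z)) : Set (H ⧸ Z)) := by
    intro q hq
    obtain ⟨n, rfl⟩ := hπ q
    have hn : n ∈ normalizer ((P : Subgroup H) : Set H) := mem_normalizer_iff.2 fun x => by
      rw [← hmem x, ← hmem (n * x * n⁻¹), map_mul, map_mul, map_inv]
      exact mem_normalizer_iff.1 hq (π x)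
    rw [mem_centralizer_iff]
    intro b hb
    obtain ⟨a, rfl⟩ := hπ b
    have h1 : π (n * a * n⁻¹ * a⁻¹) = 1 :=
      (QuotientGroup.eq_one_iff _).2 (hN n hn a ((hmem a).1 hb))
    rw [map_mul, map_mul, map_mul, map_inv, map_inv] at h1
    rw [mul_inv_eq_one, mul_inv_eq_iff_eq_mul] at h1
    exact h1.symm
  set K' := (MonoidHom.transferSylow P' hNC).ker
  have hK' : ¬ 2 ∣ Nat.card ↥K' := MonoidHom.not_dvd_card_ker_transferSylow P' hNC
  have htop' : K' ⊔ (P' : Subgroup (H ⧸ Z)) = ⊤ :=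
    (MonoidHom.ker_transferSylow_isComplement' P' hNC).sup_eq_top
  let K := K'.comap π
  have hZK : Z ≤ K := fun z hz => by
    show π z ∈ K'
    rw [show π z = 1 from (QuotientGroup.eq_one_iff z).2 hz]
    exact one_mem _
  have hidx : (Z.subgroupOf K).index = Nat.card ↥K' := by
    have hk : (π.comp K.subtype).ker = Z.subgroupOf K := by
      ext x
      simp [π, mem_subgroupOf, MonoidHom.mem_ker]
    have hr : (π.comp K.subtype).range = K' := by
      rw [MonoidHom.range_comp, K.range_subtype]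
      exact map_comap_eq_self_of_surjective hπ _
    rw [← hk, index_ker, hr]
  have hZp : IsPGroup 2 ↥(Z.subgroupOf K) :=
    (P.isPGroup'.to_le hZP).comap_of_injective K.subtype K.subtype_injective
  let Q : Sylow 2 ↥K := hZp.toSylow (hidx ▸ hK')
  have hQC : normalizer ((Q : Subgroup ↥K) : Set ↥K) ≤ centralizer ((Q : Subgroup ↥K) : Set ↥K) := by
    intro x _
    rw [mem_centralizer_iff]
    intro z hz
    refine Subtype.ext ?_
    exact (mem_center_iff.1 (hcen (mem_subgroupOf.1 hz)) (x : H)).symm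
  set O₁ := (MonoidHom.transferSylow Q hQC).ker
  have hO₁ : ¬ 2 ∣ Nat.card ↥O₁ := MonoidHom.not_dvd_card_ker_transferSylow Q hQC
  have hc₁ : IsComplement' O₁ (Q : Subgroup ↥K) := MonoidHom.ker_transferSylow_isComplement' Q hQC
  have hcard : Nat.card ↥(O₁.map K.subtype) = Nat.card ↥O₁ :=
    card_map_of_injective K.subtype_injective
  refine ⟨O₁.map K.subtype, ⟨?_⟩, hcard ▸ hO₁, ?_⟩
  · rintro _ ⟨y, hy, rfl⟩ g
    have hK : g * (y : H) * g⁻¹ ∈ K := (inferInstance : K.Normal).conj_mem _ y.2 g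
    refine ⟨⟨_, hK⟩, mem_of_coprime_index' ?_, rfl⟩
    have ho : orderOf (⟨_, hK⟩ : ↥K) = orderOf y := by
      rw [orderOf_mk, ← orderOf_coe y]
      exact orderOf_injective (MulAut.conj g).toMonoidHom (MulAut.conj g).injective (y : H)
    rw [ho, hc₁.symm.index_eq_card]
    obtain ⟨k, hk⟩ := Q.isPGroup'.exists_card_eq
    rw [hk]
    refine Nat.Coprime.pow_right _ (Nat.coprime_comm.1 ?_)
    exact (Nat.prime_two.coprime_iff_not_dvd).2 fun h2 =>
      hO₁ (h2.trans ((Subgroup.orderOf_dvd_natCard O₁ hy)))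
  · rw [eq_top_iff]
    intro h _
    have hπh : π h ∈ K' ⊔ (P' : Subgroup (H ⧸ Z)) := htop' ▸ mem_top _
    obtain ⟨k, hk, p, hp, e⟩ := mem_sup_of_normal_left.1 hπh
    obtain ⟨a, rfl⟩ := hπ p
    have haP := (hmem a).1 hp
    have hha : h * a⁻¹ ∈ K := by
      show π (h * a⁻¹) ∈ K'
      rw [map_mul, map_inv, ← e, mul_inv_cancel_right]
      exact hk
    obtain ⟨o, ho, z, hz, e2⟩ := mem_sup_of_normal_left.1
      (show (⟨_, hha⟩ : ↥K) ∈ O₁ ⊔ (Q : Subgroup ↥K) from hc₁.sup_eq_top ▸ mem_top _)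
    have e3 : (o : H) * (z : H) = h * a⁻¹ := congrArg Subtype.val e2
    rw [show h = (o : H) * ((z : H) * a) by rw [← mul_assoc, e3, inv_mul_cancel_right]]
    exact mul_mem (mem_sup_left ⟨o, ho, rfl⟩)
      (mem_sup_right (mul_mem (hZP (mem_subgroupOf.1 hz)) haP))

/-- The normal subgroup `C` with Sylow 2-subgroup `W` is `W` times an odd normal subgroup. -/
theorem le_sup_oddCore (S : Sylow 2 H) {W D C : Subgroup H} [C.Normal] (hDW : D ≤ W)
    (hSC : (S : Subgroup H) ⊓ C = W) (hcen : ∀ d ∈ D, ∀ c ∈ C, c * d = d * c)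
    (hN : ∀ c ∈ C, c ∈ normalizer (W : Set H) → ∀ w ∈ W, c * w * c⁻¹ * w⁻¹ ∈ D) :
    C ≤ W ⊔ Cfsg.oddCore H := by
  haveI : Fact (Nat.Prime 2) := ⟨Nat.prime_two⟩
  have hWC : W ≤ C := hSC ▸ inf_le_right
  have hWp : IsPGroup 2 ↥(W.subgroupOf C) :=
    (S.isPGroup'.to_le (hSC ▸ inf_le_left)).comap_of_injective C.subtype C.subtype_injective
  let P : Sylow 2 ↥C := hWp.toSylow (by
    have := CfsgLib.ThompsonJ.not_dvd_relIndex_inf_sylow S C
    rwa [hSC] at this)
  have hP : (P : Subgroup ↥C) = W.subgroupOf C := IsPGroup.toSylow_coe _ _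
  obtain ⟨O, hO, hodd, htop⟩ := exists_odd_complement P (Z := D.subgroupOf C)
    (hP ▸ comap_mono hDW)
    (fun z hz => mem_center_iff.2 fun c => Subtype.ext (hcen _ (mem_subgroupOf.1 hz) _ c.2))
    (fun n hn a ha => by
      rw [hP] at hn ha
      rw [mem_subgroupOf]
      refine hN _ n.2 (mem_normalizer_iff.2 fun x => ?_) _ (mem_subgroupOf.1 ha)
      by_cases hx : x ∈ C
      · simpa [mem_subgroupOf] using mem_normalizer_iff.1 hn ⟨x, hx⟩
      · refine ⟨fun h => absurd (hWC h) hx, fun h => absurd ?_ hx⟩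
        have := C.mul_mem (C.mul_mem (C.inv_mem n.2) (hWC h)) n.2
        simpa [mul_assoc] using this)
  let O' := O.map C.subtype
  have hcard : Nat.card ↥O' = Nat.card ↥O := card_map_of_injective C.subtype_injective
  haveI : O'.Normal := ⟨by
    rintro _ ⟨y, hy, rfl⟩ g
    have hC : g * (y : H) * g⁻¹ ∈ C := ‹C.Normal›.conj_mem _ y.2 g
    refine ⟨⟨_, hC⟩, mem_of_coprime_index' ?_, rfl⟩
    have ho : orderOf (⟨_, hC⟩ : ↥C) = orderOf y := by
      rw [orderOf_mk, ← orderOf_coe y]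
      exact orderOf_injective (MulAut.conj g).toMonoidHom (MulAut.conj g).injective (y : H)
    rw [ho]
    have hdvd : O.index ∣ Nat.card ↥(P : Subgroup ↥C) := by
      have h := relIndex_dvd_card O (P : Subgroup ↥C)
      rwa [← relIndex_sup_left, htop, relIndex_top_right] at h
    obtain ⟨k, hk⟩ := P.isPGroup'.exists_card_eq
    refine (Nat.Coprime.pow_right k (Nat.coprime_comm.1 ?_)).coprime_dvd_right (hk ▸ hdvd)
    exact (Nat.prime_two.coprime_iff_not_dvd).2 fun h2 =>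
      hodd (h2.trans (Subgroup.orderOf_dvd_natCard O hy))⟩
  have hO' : O' ≤ Cfsg.oddCore H :=
    CfsgLib.Cores.le_pPrimeCore_of_not_dvd Nat.prime_two (hcard ▸ hodd)
  intro c hc
  obtain ⟨o, ho, p, hp, e⟩ := mem_sup_of_normal_left.1
    (show (⟨c, hc⟩ : ↥C) ∈ O ⊔ (P : Subgroup ↥C) from htop ▸ mem_top _)
  rw [show c = (o : H) * (p : H) from (congrArg Subtype.val e).symm]
  refine mul_mem (mem_sup_right (hO' ⟨o, ho, rfl⟩)) (mem_sup_left ?_)
  rw [hP] at hp
  exact hp

end CfsgLib.RudvalisSylow
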