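import Mathlib
import Cfsg.Prelude.Def_Transfer

/-!
The configuration `W ≤ T` of order `2^11` in a Sylow 2-subgroup of order `2^14` (Sylow 2-subgroups
of the type of the Rudvalis group), with `D = W'` elementary of order 8.
-/

set_option autoImplicit false

namespace CfsgLib.RudvalisSylow

variable {G : Type*} [Group G]

/-- The basic configuration. -/
structure Setup (T : Sylow 2 G) (W D : Subgroup G) : Prop where
  le : W ≤ (T : Subgroup G)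
  conj_W : ∀ t ∈ (T : Subgroup G), ∀ w ∈ W, t * w * t⁻¹ ∈ W
  conj_D : ∀ t ∈ (T : Subgroup G), ∀ d ∈ D, t * d * t⁻¹ ∈ D
  card_T : Nat.card ↥(T : Subgroup G) = 2 ^ 14
  card_W : Nat.card ↥W = 2 ^ 11
  card_D : Nat.card ↥D = 8
  D_le : D ≤ W
  comm_eq : ⁅W, W⁆ = D
  sq_D : ∀ d ∈ D, d * d = 1
  central : ∀ d ∈ D, ∀ w ∈ W, w * d = d * w
  sq_W : ∀ w ∈ W, w * w ∈ D
  comm_W : ∀ v ∈ W, ∀ w ∈ W, v * w * v⁻¹ * w⁻¹ ∈ D
  small : ∀ U : Subgroup G, U ≤ W → 2 ^ 7 ≤ Nat.card ↥U → D ≤ U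
  centT : (T : Subgroup G) ⊓ Subgroup.centralizer (D : Set G) = W
  fixed : ∃ w₀ ∈ W, w₀ ∉ D ∧ (∀ t ∈ (T : Subgroup G), t * w₀ * t⁻¹ * w₀⁻¹ ∈ D) ∧
    ∀ w ∈ W, (∀ t ∈ (T : Subgroup G), t * w * t⁻¹ * w⁻¹ ∈ D) → w ∈ D ∨ w₀⁻¹ * w ∈ D

/-- An index two subgroup avoiding a given element. -/
theorem exists_two_avoid [Finite G] {U K : Subgroup G} (hK : K ≤ U) (hsq : ∀ u ∈ U, u * u ∈ K)
    {d : G} (hd : d ∈ U) (hdK : d ∉ K) :
    ∃ M : Subgroup G, K ≤ M ∧ M ≤ U ∧ d ∉ M ∧ ∀ u ∈ U, u ∈ M ∨ d * u ∈ M := by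
  classical
  have hne : ({M : Subgroup G | K ≤ M ∧ M ≤ U ∧ d ∉ M}).Nonempty := ⟨K, le_rfl, hK, hdK⟩
  obtain ⟨M, hM⟩ := (Set.toFinite {M : Subgroup G | K ≤ M ∧ M ≤ U ∧ d ∉ M}).exists_maximal hne
  obtain ⟨⟨hKM, hMU, hdM⟩, hmax⟩ := hM
  have hcl : ∀ a ∈ U, ∀ b ∈ U, a * b * a⁻¹ * b⁻¹ ∈ K := by
    intro a ha b hb
    rw [show a * b * a⁻¹ * b⁻¹ = (a * a) * ((a⁻¹ * b) * (a⁻¹ * b)) * (b⁻¹ * b⁻¹) by group]
    exact K.mul_mem (K.mul_mem (hsq a ha) (hsq _ (U.mul_mem (U.inv_mem ha) hb)))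
      (hsq _ (U.inv_mem hb))
  refine ⟨M, hKM, hMU, hdM, fun u hu => ?_⟩
  by_contra hcon
  push Not at hcon
  -- the subgroup `M ∪ u M`
  let M' : Subgroup G :=
    { carrier := {g | g ∈ U ∧ (g ∈ M ∨ u * g ∈ M)}
      one_mem' := ⟨U.one_mem, Or.inl M.one_mem⟩
      mul_mem' := by
        rintro a b ⟨haU, ha⟩ ⟨hbU, hb⟩
        refine ⟨U.mul_mem haU hbU, ?_⟩
        rcases ha with ha | ha <;> rcases hb with hb | hb
        · exact Or.inl (M.mul_mem ha hb)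
        · right
          rw [show u * (a * b) = (u * a * u⁻¹ * a⁻¹) * a * (u * b) by group]
          exact M.mul_mem (M.mul_mem (hKM (hcl u hu a haU)) ha) hb
        · right
          rw [← mul_assoc]; exact M.mul_mem ha hb
        · left
          rw [show a * b = (u⁻¹ * u⁻¹) * (u * (u * a) * u⁻¹ * (u * a)⁻¹) * ((u * a) * (u * b)) by group]
          exact M.mul_mem (M.mul_mem (hKM (hsq _ (U.inv_mem hu)))
            (hKM (hcl u hu _ (U.mul_mem hu haU)))) (M.mul_mem ha hb)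
      inv_mem' := by
        rintro a ⟨haU, ha⟩
        refine ⟨U.inv_mem haU, ?_⟩
        rcases ha with ha | ha
        · exact Or.inl (M.inv_mem ha)
        · right
          rw [show u * a⁻¹ = (u * (u * a)⁻¹ * u⁻¹ * (u * a)) * (u * a)⁻¹ * (u * u) by group]
          refine M.mul_mem (M.mul_mem (hKM ?_) (M.inv_mem ha)) (hKM (hsq u hu))
          simpa using hcl u hu (u * a)⁻¹ (U.inv_mem (U.mul_mem hu haU)) }
  have hMM' : M ≤ M' := fun g hg => ⟨hMU hg, Or.inl hg⟩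
  have hu' : u ∈ M' := ⟨hu, Or.inr (hKM (hsq u hu))⟩
  have hdM' : d ∉ M' := by
    rintro ⟨-, h | h⟩
    · exact hdM h
    · apply hcon.2
      rw [show d * u = (d * u * d⁻¹ * u⁻¹) * (u * d) by group]
      exact M.mul_mem (hKM (hcl d hd u hu)) h
  exact hcon.1 (hmax ⟨hKM.trans hMM', fun g hg => hg.1, hdM'⟩ hMM' hu')

end CfsgLib.RudvalisSylow
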