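import Cfsg.Agent.Lib.RudvalisSylow.Defs
import Cfsg.Agent.Lib.RudvalisSylow.Complement

/-!
The normalizers of `W` and of `D = W'`, given that the normalizer of `W` induces all automorphisms
of `D` and that its elements centralising `D` centralise `W/D`.
-/

set_option autoImplicit false
set_option linter.style.haveILetI false

namespace CfsgLib.RudvalisSylow

open Subgroup

variable {G : Type*} [Group G] [Finite G] {T : Sylow 2 G} {W D : Subgroup G}

omit [Finite G] in
theorem Setup.sylow_le_normalizer (S : Setup T W D) :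
    (T : Subgroup G) ≤ normalizer (W : Set G) := fun t ht => mem_normalizer_iff.2 fun w =>
  ⟨fun hw => S.conj_W t ht w hw, fun hw => by
    simpa [mul_assoc] using S.conj_W t⁻¹ (inv_mem ht) _ hw⟩

omit [Finite G] in
theorem Setup.normalizer_le (S : Setup T W D) : normalizer (W : Set G) ≤ normalizer (D : Set G) := by
  have h1 : ∀ n ∈ normalizer (W : Set G), ∀ d ∈ D, n * d * n⁻¹ ∈ D := by
    intro n hn d hd
    have hmap : D.map (MulAut.conj n).toMonoidHom = D := by
      rw [← S.comm_eq, map_commutator, CfsgLib.ThompsonJ.map_conj_eq_self_of_mem_normalizer hn]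
    exact hmap ▸ ⟨d, hd, rfl⟩
  intro n hn
  exact mem_normalizer_iff.2 fun d => ⟨h1 n hn d, fun hd => by
    simpa [mul_assoc] using h1 n⁻¹ (inv_mem hn) _ hd⟩

omit [Finite G] in
theorem Setup.le_centralizer (S : Setup T W D) : W ≤ centralizer (D : Set G) :=
  fun w hw => mem_centralizer_iff.2 fun d hd => (S.central d hd w hw).symm

/-- Inside a subgroup `K` between `T` and `N(D)`, the centralizer of `D` is `W` times an odd
normal subgroup. -/
theorem Setup.centralizer_le_sup (S : Setup T W D)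
    (hq : ∀ c ∈ normalizer (W : Set G) ⊓ centralizer (D : Set G), ∀ w ∈ W, c * w * c⁻¹ * w⁻¹ ∈ D)
    {K : Subgroup G} (hTK : (T : Subgroup G) ≤ K) (hK : K ≤ normalizer (D : Set G)) :
    (centralizer (D : Set G)).subgroupOf K ≤ W.subgroupOf K ⊔ Cfsg.oddCore ↥K := by
  have hn : ((centralizer (D : Set G)).subgroupOf K).Normal := ⟨fun c hc k => by
    rw [mem_subgroupOf, mem_centralizer_iff] at hc ⊢
    intro d hd
    have hd' : (k : G)⁻¹ * d * k ∈ D := (mem_normalizer_iff''.1 (hK k.2) d).1 hd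
    have e := hc _ hd'
    simp only [Subgroup.coe_mul, Subgroup.coe_inv]
    calc d * ((k : G) * c * (k : G)⁻¹) = k * ((k : G)⁻¹ * d * k * c) * (k : G)⁻¹ := by group
      _ = k * (c * ((k : G)⁻¹ * d * k)) * (k : G)⁻¹ := by rw [e]
      _ = (k : G) * c * (k : G)⁻¹ * d := by group⟩
  refine le_sup_oddCore (T.subtype hTK) (D := D.subgroupOf K) (comap_mono S.D_le) ?_ ?_ ?_
  · rw [Sylow.coe_subtype, subgroupOf, subgroupOf, ← comap_inf, S.centT]; rfl
  · intro d hd c hc
    exact Subtype.ext (mem_centralizer_iff.1 (mem_subgroupOf.1 hc) _ (mem_subgroupOf.1 hd)).symm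
  · intro c hc hn' w hw
    rw [mem_subgroupOf]
    refine hq _ ⟨mem_normalizer_iff.2 fun x => ?_, mem_subgroupOf.1 hc⟩ _ (mem_subgroupOf.1 hw)
    by_cases hx : x ∈ K
    · simpa [mem_subgroupOf] using mem_normalizer_iff.1 hn' ⟨x, hx⟩
    · refine ⟨fun h => absurd (hTK (S.le h)) hx, fun h => absurd ?_ hx⟩
      have := K.mul_mem (K.mul_mem (K.inv_mem c.2) (hTK (S.le h))) c.2
      simpa [mul_assoc] using this

theorem Setup.normalizer_structure (S : Setup T W D)
    (hfull : ∀ f : MulAut ↥D, ∃ n ∈ normalizer (W : Set G), ∀ d : ↥D, n * (d : G) * n⁻¹ = (f d : G))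
    (hq : ∀ c ∈ normalizer (W : Set G) ⊓ centralizer (D : Set G), ∀ w ∈ W, c * w * c⁻¹ * w⁻¹ ∈ D)
    (hGL : Nonempty (MulAut ↥D ≃* GL (Fin 3) (ZMod 2)))
    (N M : Subgroup G) (hN : N = normalizer (W : Set G)) (hM : M = normalizer (D : Set G)) :
    (N.subgroupOf M ⊔ Cfsg.oddCore ↥M = ⊤) ∧
      ∃ (_ : (W.subgroupOf N ⊔ Cfsg.oddCore ↥N).Normal),
        Nonempty (↥N ⧸ (W.subgroupOf N ⊔ Cfsg.oddCore ↥N) ≃* GL (Fin 3) (ZMod 2)) := by
  haveI : Fact (Nat.Prime 2) := ⟨Nat.prime_two⟩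
  subst hN hM
  have hTN := S.sylow_le_normalizer
  have hNM := S.normalizer_le
  refine ⟨?_, ?_⟩
  · have hC := S.centralizer_le_sup hq (hTN.trans hNM) le_rfl
    set M := normalizer (D : Set G)
    haveI hn : ((centralizer (D : Set G)).subgroupOf M).Normal :=
      ⟨fun c hc k => by
        rw [mem_subgroupOf, mem_centralizer_iff] at hc ⊢
        intro d hd
        have hd' : (k : G)⁻¹ * d * k ∈ D := (mem_normalizer_iff''.1 k.2 d).1 hd
        have e := hc _ hd'
        simp only [Subgroup.coe_mul, Subgroup.coe_inv]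
        calc d * ((k : G) * c * (k : G)⁻¹) = k * ((k : G)⁻¹ * d * k * c) * (k : G)⁻¹ := by group
          _ = k * (c * ((k : G)⁻¹ * d * k)) * (k : G)⁻¹ := by rw [e]
          _ = (k : G) * c * (k : G)⁻¹ * d := by group⟩
    rw [eq_top_iff]
    intro g _
    obtain ⟨c, hc, n, hn', rfl⟩ := CfsgLib.ThompsonJ.exists_mul_normalizer_inf_sylow
      (T.subtype (hTN.trans hNM)) ((centralizer (D : Set G)).subgroupOf M) g
    refine mul_mem (sup_le_sup_right (comap_mono le_normalizer) _ (hC hc)) (mem_sup_left ?_)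
    rw [Sylow.coe_subtype, subgroupOf, subgroupOf, ← comap_inf, S.centT, ← subgroupOf] at hn'
    refine mem_subgroupOf.2 (mem_normalizer_iff.2 fun x => ?_)
    have hWM : W ≤ M := S.le.trans (hTN.trans hNM)
    by_cases hx : x ∈ M
    · simpa [mem_subgroupOf] using mem_normalizer_iff.1 hn' ⟨x, hx⟩
    · refine ⟨fun h => absurd (hWM h) hx, fun h => absurd ?_ hx⟩
      have := M.mul_mem (M.mul_mem (M.inv_mem n.2) (hWM h)) n.2
      simpa [mul_assoc] using this
  set N := normalizer (W : Set G)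
  let ρ : ↥N →* MulAut ↥D := D.normalizerMonoidHom.comp (inclusion hNM)
  have hρ : Function.Surjective ρ := fun f => by
    obtain ⟨n, hn, h⟩ := hfull f
    exact ⟨⟨n, hn⟩, MulEquiv.ext fun d => Subtype.ext (h d)⟩
  haveI hWn : (W.subgroupOf N).Normal :=
    ⟨fun w hw n => mem_subgroupOf.2 ((mem_normalizer_iff.1 n.2 _).1 (mem_subgroupOf.1 hw))⟩
  haveI hOn : (Cfsg.oddCore ↥N).Normal := inferInstance
  have hker : ρ.ker = (centralizer (D : Set G)).subgroupOf N := by
    show (D.normalizerMonoidHom.comp (inclusion hNM)).ker = _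
    rw [← MonoidHom.comap_ker, normalizerMonoidHom_ker]
    ext x
    simp [mem_subgroupOf]
  have heq : ρ.ker = W.subgroupOf N ⊔ Cfsg.oddCore ↥N := by
    rw [hker]
    refine le_antisymm (S.centralizer_le_sup hq hTN hNM) (sup_le (comap_mono S.le_centralizer) ?_)
    intro x hx
    rw [mem_subgroupOf, mem_centralizer_iff]
    intro d hd
    let d' : ↥N := ⟨d, hTN (S.le (S.D_le hd))⟩
    have hd' : d' ∈ W.subgroupOf N := mem_subgroupOf.2 (S.D_le hd)
    have h1 : x * d' * x⁻¹ * d'⁻¹ ∈ W.subgroupOf N :=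
      mul_mem (hWn.conj_mem _ hd' x) (inv_mem hd')
    have h2 : x * d' * x⁻¹ * d'⁻¹ ∈ Cfsg.oddCore ↥N := by
      rw [show x * d' * x⁻¹ * d'⁻¹ = x * (d' * x⁻¹ * d'⁻¹) by group]
      exact mul_mem hx (hOn.conj_mem _ (inv_mem hx) d')
    have h3 : x * d' * x⁻¹ * d'⁻¹ = 1 := by
      rw [← orderOf_eq_one_iff]
      refine Nat.eq_one_of_dvd_coprimes ?_ (orderOf_dvd_natCard _ h1) (orderOf_dvd_natCard _ h2)
      rw [Nat.card_congr (subgroupOfEquivOfLe (S.le.trans hTN)).toEquiv, S.card_W]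
      exact Nat.Coprime.pow_left _
        (Nat.coprime_two_left.2 (CfsgLib.Cores.odd_card_oddCore (G := ↥N)))
    rw [mul_inv_eq_one, mul_inv_eq_iff_eq_mul] at h3
    exact (congrArg Subtype.val h3).symm
  refine ⟨inferInstance, ?_⟩
  obtain ⟨e⟩ := hGL
  exact ⟨((QuotientGroup.quotientMulEquivOfEq heq.symm).trans
    (QuotientGroup.quotientKerEquivOfSurjective ρ hρ)).trans e⟩

end CfsgLib.RudvalisSylow
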