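import Cfsg.Agent.Lib.RudvalisSylow.Defs
import Cfsg.Agent.Lib.ThompsonJ.SylowTools
import Cfsg.Agent.Lib.Generators.SmallPermGroups
import Cfsg.Agent.Lib.SmallGroups.Order168Classes

/-!
The normalizer of `W` induces the full automorphism group `GL₃(2)` on `D = W'`: the image contains
a Sylow 2-subgroup of order 8, and a proper subgroup of that kind has a subgroup of index 2, which
transfer excludes.
-/

set_option autoImplicit false
set_option linter.style.haveILetI false
set_option linter.unusedSectionVars false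

namespace CfsgLib.RudvalisSylow

open Subgroup

/-- The automorphism group of an elementary abelian group of order eight. -/
theorem nonempty_mulAut_eight {A : Type*} [CommGroup A] [Finite A] (hA : Nat.card A = 8)
    (hsq : ∀ a : A, a * a = 1) : Nonempty (MulAut A ≃* GL (Fin 3) (ZMod 2)) := by
  letI : Module (ZMod 2) (Additive A) := AddCommGroup.zmodModule (n := 2) (fun x => by
    rw [two_nsmul]; exact Additive.toMul.injective (hsq _))
  haveI : Finite (Additive A) := inferInstanceAs (Finite A)
  have hdim : Module.finrank (ZMod 2) (Additive A) = 3 := by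
    have h := Module.natCard_eq_pow_finrank (K := ZMod 2) (V := Additive A)
    rw [Nat.card_congr (Additive.toMul (α := A)), hA, Nat.card_zmod] at h
    exact (Nat.pow_right_injective le_rfl
      (show 2 ^ 3 = 2 ^ Module.finrank (ZMod 2) (Additive A) from h)).symm
  let b : Module.Basis (Fin 3) (ZMod 2) (Additive A) := Module.finBasisOfFinrankEq _ _ hdim
  let E : MulAut A ≃* (Additive A ≃ₗ[ZMod 2] Additive A) :=
    { toFun := fun α => (MulEquiv.toAdditive α).toLinearEquiv (fun c x => ZMod.map_smul _ c x)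
      invFun := fun l => MulEquiv.toAdditive.symm l.toAddEquiv
      left_inv := fun α => MulEquiv.ext fun _ => rfl
      right_inv := fun l => LinearEquiv.ext fun _ => rfl
      map_mul' := fun α β => LinearEquiv.ext fun _ => rfl }
  exact ⟨(E.trans (LinearMap.GeneralLinearGroup.generalLinearEquiv (ZMod 2) (Additive A)).symm).trans
    (Units.mapEquiv (LinearMap.toMatrixAlgEquiv b).toMulEquiv)⟩

/-- A proper subgroup of order divisible by eight of a simple group of order 168 has a character of
order two. -/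
theorem exists_sign_of_proper {A : Type*} [Group A] [Finite A] [IsSimpleGroup A]
    (h : Nat.card A = 168) {H : Subgroup A} (hH : H ≠ ⊤) (h8 : 8 ∣ Nat.card ↥H) :
    ∃ χ : ↥H →* Multiplicative (ZMod 2), Function.Surjective χ := by
  have : Fact (Nat.Prime 2) := ⟨Nat.prime_two⟩
  have hle := SmallGroups.Order168.card_le_twenty_four h hH
  have hd : Nat.card ↥H ∣ 168 := h ▸ H.card_subgroup_dvd_card
  have hcase : Nat.card ↥H = 8 ∨ Nat.card ↥H = 24 := by
    have hpos : 0 < Nat.card ↥H := Nat.card_pos
    obtain ⟨k, hk⟩ := h8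
    have hk3 : k ≤ 3 := by omega
    interval_cases k <;> simp_all
  have key : ∀ {Y : Type} [Group Y], Nat.card Y = 2 → ∀ f : ↥H →* Y, Function.Surjective f →
      ∃ χ : ↥H →* Multiplicative (ZMod 2), Function.Surjective χ := fun {Y} _ hY f hf => by
    let e : Y ≃* Multiplicative (ZMod 2) :=
      mulEquivOfPrimeCardEq hY (by rw [Nat.card_congr Multiplicative.toAdd, Nat.card_zmod])
    exact ⟨e.toMonoidHom.comp f, e.surjective.comp hf⟩
  rcases hcase with h8' | h24
  · obtain ⟨K, hK⟩ := Sylow.exists_subgroup_card_pow_prime 2 (G := ↥H) (n := 2)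
      (by rw [h8']; norm_num)
    have hi : K.index = 2 := by
      have := K.card_mul_index
      rw [h8', hK] at this
      omega
    haveI := normal_of_index_eq_two hi
    let e : ↥H ⧸ K ≃* Multiplicative (ZMod 2) :=
      mulEquivOfPrimeCardEq hi (by rw [Nat.card_congr Multiplicative.toAdd, Nat.card_zmod])
    exact ⟨e.toMonoidHom.comp (QuotientGroup.mk' K),
      e.surjective.comp (QuotientGroup.mk'_surjective K)⟩
  · obtain ⟨e⟩ := SmallGroups.nonempty_mulEquiv_perm_four h24 fun g => by
      rw [← Subgroup.orderOf_coe]; exact SmallGroups.Order168.orderOf_ne_six h _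
    exact key (Y := ℤˣ) (by rw [Nat.card_eq_fintype_card]; rfl) (Equiv.Perm.sign.comp e.toMonoidHom)
      (by rw [MonoidHom.coe_comp, MulEquiv.coe_toMonoidHom]; exact (Equiv.Perm.sign_surjective (Fin 4)).comp e.surjective)

variable {G : Type*} [Group G] [Finite G] {T : Sylow 2 G} {W D : Subgroup G}

/-- The automorphism group of `D`. -/
theorem Setup.mulAut_equiv_GL (S : Setup T W D) :
    Nonempty (MulAut ↥D ≃* GL (Fin 3) (ZMod 2)) := by
  letI : CommGroup ↥D :=
    { D.toGroup with
      mul_comm := fun a b => Subtype.ext (S.central _ b.2 _ (S.D_le a.2)) }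
  exact nonempty_mulAut_eight S.card_D fun a => Subtype.ext (S.sq_D _ a.2)

/-- The normalizer of `W` induces every automorphism of `D`. -/
theorem Setup.full_action (S : Setup T W D)
    (htr : ∀ φ : ↥(normalizer (W : Set G)) →* Multiplicative (ZMod 2), Function.Surjective φ →
      (∀ x : ↥(normalizer (W : Set G)), (x : G) ∈ centralizer (D : Set G) → φ x = 1) →
        ∃ H : Subgroup G, H.index = 2)
    (h2 : ∀ H : Subgroup G, H.index ≠ 2) :
    ∀ f : MulAut ↥D, ∃ n ∈ normalizer (W : Set G), ∀ d : ↥D, n * (d : G) * n⁻¹ = (f d : G) := by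
  have hND : normalizer (W : Set G) ≤ normalizer (D : Set G) := by
    have h1 : ∀ n ∈ normalizer (W : Set G), ∀ d ∈ D, n * d * n⁻¹ ∈ D := by
      intro n hn d hd
      have hmap : D.map (MulAut.conj n).toMonoidHom = D := by
        rw [← S.comm_eq, map_commutator,
          CfsgLib.ThompsonJ.map_conj_eq_self_of_mem_normalizer hn]
      exact hmap ▸ ⟨d, hd, rfl⟩
    intro n hn
    exact mem_normalizer_iff.2 fun d => ⟨h1 n hn d, fun hd => by
      simpa [mul_assoc] using h1 n⁻¹ (inv_mem hn) _ hd⟩
  have hTN : (T : Subgroup G) ≤ normalizer (W : Set G) := fun t ht => mem_normalizer_iff.2 fun w =>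
    ⟨fun hw => S.conj_W t ht w hw, fun hw => by
      simpa [mul_assoc] using S.conj_W t⁻¹ (inv_mem ht) _ hw⟩
  set N := normalizer (W : Set G)
  let ρ : ↥N →* MulAut ↥D := D.normalizerMonoidHom.comp (inclusion hND)
  have hker : ∀ x : ↥N, ρ x = 1 ↔ (x : G) ∈ centralizer (D : Set G) := by
    intro x
    rw [← MonoidHom.mem_ker (f := ρ)]
    show x ∈ (D.normalizerMonoidHom.comp (inclusion hND)).ker ↔ _
    rw [← MonoidHom.comap_ker, normalizerMonoidHom_ker]
    simp [mem_subgroupOf]
  suffices htop : ρ.range = ⊤ by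
    intro f
    obtain ⟨n, hn⟩ := MonoidHom.range_eq_top.1 htop f
    exact ⟨n, n.2, fun d => by rw [← hn]; rfl⟩
  by_contra hne
  -- the image of `T` has order eight
  let ρT : ↥(T : Subgroup G) →* MulAut ↥D := ρ.comp (inclusion hTN)
  have hkT : ρT.ker = W.subgroupOf (T : Subgroup G) := by
    ext t
    rw [MonoidHom.mem_ker, mem_subgroupOf]
    show ρ (inclusion hTN t) = 1 ↔ _
    rw [hker, coe_inclusion]
    conv_rhs => rw [← S.centT, mem_inf]
    exact ⟨fun h => ⟨t.2, h⟩, fun h => h.2⟩
  have h8T : Nat.card ↥ρT.range = 8 := by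
    have h := ρT.ker.card_mul_index
    rw [index_ker, hkT, Nat.card_congr (subgroupOfEquivOfLe S.le).toEquiv, S.card_W, S.card_T] at h
    exact Nat.eq_of_mul_eq_mul_left (show 0 < 2 ^ 11 by norm_num) (h.trans (by norm_num))
  have h8 : 8 ∣ Nat.card ↥ρ.range := by
    rw [← h8T]
    refine card_dvd_of_le ?_
    rintro _ ⟨t, rfl⟩
    exact ⟨_, rfl⟩
  obtain ⟨e⟩ := S.mulAut_equiv_GL
  haveI : IsSimpleGroup (MulAut ↥D) := by
    have := CfsgLib.Generators.SmallPermGroups.isSimple_GL3
    exact e.isSimpleGroup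
  have hcard : Nat.card (MulAut ↥D) = 168 :=
    (Nat.card_congr e.toEquiv).trans CfsgLib.Generators.SmallPermGroups.card_GL3
  obtain ⟨χ, hχ⟩ := exists_sign_of_proper hcard hne h8
  obtain ⟨K, hK⟩ := htr (χ.comp ρ.rangeRestrict) (hχ.comp ρ.rangeRestrict_surjective)
    fun x hx => by
      have : ρ.rangeRestrict x = 1 := Subtype.ext ((hker x).2 hx)
      rw [MonoidHom.comp_apply, this, map_one]
  exact h2 K hK

end CfsgLib.RudvalisSylow
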