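import Cfsg.Agent.Lib.RudvalisSylow.Defs
import Cfsg.Agent.Lib.CoprimeAction.Sylow
import Cfsg.Agent.Lib.Generators.SmallPermGroups

/-!
The odd part of the normaliser of `W` that centralises `D` acts trivially on `W / D`: an odd order group
acting on `W / D` normalised by `T`, with `T` fixing only one non-zero vector, is trivial once the normaliser
induces all automorphisms of `D`.
-/

set_option autoImplicit false
set_option linter.unusedSectionVars false

namespace CfsgLib.RudvalisSylow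

open Subgroup
open scoped Pointwise

section Abstract

variable {Γ : Type*} [Group Γ] [Finite Γ] {V : Type*} [AddCommGroup V] [Finite V]
  (ρ : Γ →* (AddMonoid.End V)ˣ) {H : Type*} [Group H] [Finite H] [IsSimpleGroup H] (φ : Γ →* H)
  (T : Subgroup Γ)

local instance finite_units : Finite (AddMonoid.End V)ˣ :=
  haveI : Finite (AddMonoid.End V) := Finite.of_injective (fun f => (f : V → V)) DFunLike.coe_injective
  Finite.of_injective _ Units.val_injective

theorem act_mul (x y : (AddMonoid.End V)ˣ) (v : V) :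
    ((x * y : (AddMonoid.End V)ˣ) : AddMonoid.End V) v = (x : AddMonoid.End V) ((y : AddMonoid.End V) v) := rfl

theorem act_one (v : V) : ((1 : (AddMonoid.End V)ˣ) : AddMonoid.End V) v = v := rfl

theorem act_inv_cancel (x : (AddMonoid.End V)ˣ) (v : V) :
    ((x⁻¹ : (AddMonoid.End V)ˣ) : AddMonoid.End V) ((x : AddMonoid.End V) v) = v := by
  rw [← act_mul, inv_mul_cancel, act_one]

/-- A homomorphism of a subgroup covering the simple quotient, not injective modulo the kernel, kills the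
2-subgroup. -/
theorem kill {P : Subgroup Γ} {B : Type*} [Group B] (f : ↥P →* B) (hT : IsPGroup 2 T)
    (hsur : ∀ h, ∃ p ∈ P, φ p = h) (hker : ∀ p : P, ρ p = 1 → f p = 1)
    (hodd : Odd (Nat.card ↥(φ.ker.map ρ))) (hne : ∃ p : P, φ p ≠ 1 ∧ f p = 1) :
    ∀ t : P, (t : Γ) ∈ T → f t = 1 := by
  intro t ht
  have hs : Function.Surjective (φ.comp P.subtype) := fun h => by
    obtain ⟨p, hp, e⟩ := hsur h
    exact ⟨⟨p, hp⟩, e⟩
  have hN : (f.ker.map (φ.comp P.subtype)).Normal := Subgroup.Normal.map inferInstance _ hs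
  rcases hN.eq_bot_or_eq_top with h | h
  · obtain ⟨p, hp, hpf⟩ := hne
    have := Subgroup.mem_map_of_mem (φ.comp P.subtype) (MonoidHom.mem_ker.2 hpf)
    rw [h, Subgroup.mem_bot] at this
    exact absurd this hp
  obtain ⟨l, hl, hlt⟩ : φ (t : Γ) ∈ f.ker.map (φ.comp P.subtype) := h ▸ Subgroup.mem_top _
  set k : P := l⁻¹ * t with hk
  have hkφ : (k : Γ) ∈ φ.ker := by
    rw [MonoidHom.mem_ker, hk, Subgroup.coe_mul, Subgroup.coe_inv, map_mul, map_inv, ← hlt]
    exact inv_mul_cancel _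
  have hfk : f t = f k := by rw [hk, map_mul, map_inv, MonoidHom.mem_ker.1 hl, inv_one, one_mul]
  have h1 : orderOf (f k) ∣ orderOf (ρ (k : Γ)) := by
    rw [orderOf_dvd_iff_pow_eq_one, ← map_pow]
    exact hker _ (by rw [Subgroup.coe_pow, map_pow, pow_orderOf_eq_one])
  have h2 : orderOf (ρ (k : Γ)) ∣ Nat.card ↥(φ.ker.map ρ) :=
    Subgroup.orderOf_dvd_natCard _ (Subgroup.mem_map_of_mem ρ hkφ)
  obtain ⟨e, he⟩ := IsPGroup.iff_orderOf.1 hT ⟨t, ht⟩
  have h3 : orderOf (f t) ∣ 2 ^ e := by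
    refine (orderOf_map_dvd f t).trans ?_
    rw [← he, Subgroup.orderOf_mk, ← Subgroup.orderOf_coe]
  rw [← orderOf_eq_one_iff, ← Nat.dvd_one]
  have hc : Nat.Coprime (2 ^ e) (Nat.card ↥(φ.ker.map ρ)) := (Nat.coprime_two_left.2 hodd).pow_left e
  rw [← hc.gcd_eq_one]
  exact Nat.dvd_gcd h3 (hfk ▸ h1.trans h2)

/-- The fixed subgroup of a set of automorphisms. -/
def fix (Y : Subgroup (AddMonoid.End V)ˣ) : AddSubgroup V where
  carrier := {v | ∀ y ∈ Y, (y : AddMonoid.End V) v = v}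
  zero_mem' := fun y _ => map_zero _
  add_mem' := fun {a b} ha hb y hy => by rw [map_add, ha y hy, hb y hy]
  neg_mem' := fun {a} ha y hy => by rw [map_neg, ha y hy]

/-- The norm of a finite group of automorphisms. -/
noncomputable def norm (Y : Subgroup (AddMonoid.End V)ˣ) : V →+ V :=
  letI := Fintype.ofFinite ↥Y
  ∑ y : Y, ((y : (AddMonoid.End V)ˣ) : AddMonoid.End V)

theorem norm_apply (Y : Subgroup (AddMonoid.End V)ˣ) [Fintype ↥Y] (v : V) :
    norm Y v = ∑ y : Y, ((y : (AddMonoid.End V)ˣ) : AddMonoid.End V) v := by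
  unfold norm
  rw [Subsingleton.elim (Fintype.ofFinite ↥Y) ‹Fintype ↥Y›]
  exact AddMonoidHom.finsetSum_apply _ _ _

theorem nsmul_odd (h2 : ∀ v : V, v + v = 0) {n : ℕ} (hn : Odd n) (v : V) : n • v = v := by
  obtain ⟨j, rfl⟩ := hn
  rw [add_nsmul, one_nsmul, mul_comm, mul_nsmul', two_nsmul, h2, nsmul_zero, zero_add]

theorem norm_mem_fix (Y : Subgroup (AddMonoid.End V)ˣ) (v : V) : norm Y v ∈ fix Y := by
  classical
  intro y hy
  let := Fintype.ofFinite ↥Y
  rw [norm_apply, map_sum]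
  exact Fintype.sum_equiv (Equiv.mulLeft (⟨y, hy⟩ : Y)) _ _ fun x => (act_mul y (x : (AddMonoid.End V)ˣ) v).symm

theorem norm_of_fix (h2 : ∀ v : V, v + v = 0) {Y : Subgroup (AddMonoid.End V)ˣ} (hY : Odd (Nat.card ↥Y)) {v : V}
    (hv : v ∈ fix Y) : norm Y v = v := by
  classical
  let := Fintype.ofFinite ↥Y
  rw [norm_apply, Finset.sum_congr rfl (fun y _ => hv _ y.2), Finset.sum_const, Finset.card_univ,
    ← Nat.card_eq_fintype_card]
  exact nsmul_odd h2 hY v

theorem norm_conj {Y : Subgroup (AddMonoid.End V)ˣ} {g : (AddMonoid.End V)ˣ}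
    (hg : g ∈ normalizer (Y : Set (AddMonoid.End V)ˣ)) (v : V) :
    norm Y ((g : AddMonoid.End V) v) = (g : AddMonoid.End V) (norm Y v) := by
  classical
  let := Fintype.ofFinite ↥Y
  rw [norm_apply, norm_apply, map_sum]
  refine Fintype.sum_equiv
    (show ↥Y ≃ ↥Y from
    { toFun := fun y => ⟨g⁻¹ * (y : (AddMonoid.End V)ˣ) * g, by simpa using mem_normalizer_iff.1 (inv_mem hg) y |>.1 y.2⟩
      invFun := fun y => ⟨g * (y : (AddMonoid.End V)ˣ) * g⁻¹, mem_normalizer_iff.1 hg y |>.1 y.2⟩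
      left_inv := fun y => Subtype.ext (by simp [mul_assoc])
      right_inv := fun y => Subtype.ext (by simp [mul_assoc]) }) _ _ fun y => ?_
  show _ = (g : AddMonoid.End V) (((g⁻¹ * (y : (AddMonoid.End V)ˣ) * g : (AddMonoid.End V)ˣ) : AddMonoid.End V) v)
  rw [← act_mul g, ← act_mul]
  simp [mul_assoc]

/-- The abstract statement. -/
theorem ker_acts_trivially (h2 : ∀ v : V, v + v = 0) (hV : Nat.card V ≤ 256) (hφ : Function.Surjective φ)
    (hcard : 120 < Nat.card H) (hnc : ∃ a b : H, a * b ≠ b * a) (hodd : Odd (Nat.card ↥(φ.ker.map ρ)))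
    (hT : IsPGroup 2 T) (w : V) (hw : w ≠ 0) (hwT : ∀ t ∈ T, (ρ t : AddMonoid.End V) w = w)
    (huniq : ∀ v, (∀ t ∈ T, (ρ t : AddMonoid.End V) v = v) → v = 0 ∨ v = w) : ∀ k ∈ φ.ker, ρ k = 1 := by
  classical
  set X := φ.ker.map ρ with hX
  by_contra hcon
  push Not at hcon
  obtain ⟨k₀, hk₀, hk₀1⟩ := hcon
  have hXne : X ≠ ⊥ := fun h => hk₀1 (by
    have := Subgroup.mem_map_of_mem ρ hk₀
    rwa [← hX, h, Subgroup.mem_bot] at this)
  obtain ⟨r, hr, hrX⟩ := Nat.exists_prime_and_dvd (fun h => hXne (Subgroup.card_eq_one.1 h))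
  haveI : Fact r.Prime := ⟨hr⟩
  have hrodd : Odd r := Odd.of_dvd_nat hodd hrX
  have hXn : ∀ γ : Γ, ρ γ ∈ normalizer (X : Set (AddMonoid.End V)ˣ) := fun γ =>
    CoprimeAction.mem_normalizer_of_conj_mem (fun x hx => by
      obtain ⟨k, hk, rfl⟩ := hx
      exact ⟨γ * k * γ⁻¹, MonoidHom.normal_ker φ |>.conj_mem k hk γ, by simp⟩)
  -- an invariant Sylow subgroup
  have hTp : IsPGroup 2 ↥(T.map ρ) := hT.map ρ
  obtain ⟨R₀, hR₀⟩ := CoprimeAction.exists_invariant_sylow (A := T.map ρ) (K := X)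
    (by rintro _ ⟨t, -, rfl⟩; exact hXn t)
    (by
      obtain ⟨e, he⟩ := IsPGroup.iff_card.1 hTp
      rw [he]
      exact (Nat.coprime_two_left.2 hodd).pow_left e)
    (Or.inl (by haveI := hTp.isNilpotent; infer_instance)) r
  set R : Subgroup (AddMonoid.End V)ˣ := (R₀ : Subgroup ↥X).map X.subtype with hR
  have hRX : R ≤ X := Subgroup.map_subtype_le _
  set P : Subgroup Γ := (normalizer (R : Set (AddMonoid.End V)ˣ)).comap ρ with hP
  have hTP : T ≤ P := fun t ht => hR₀ (Subgroup.mem_map_of_mem ρ ht)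
  -- Frattini
  have hsur : ∀ h, ∃ p ∈ P, φ p = h := by
    intro h
    obtain ⟨n, rfl⟩ := hφ h
    let S : Subgroup (AddMonoid.End V)ˣ := MulAut.conj (ρ n) • R
    have hS : S ≤ X := CoprimeAction.conj_smul_le (hXn n) hRX
    have hcS : Nat.card (S.subgroupOf X) = r ^ (Nat.card X).factorization r := by
      rw [Nat.card_congr (Subgroup.subgroupOfEquivOfLe hS).toEquiv, CoprimeAction.card_conj_smul, hR,
        ← Nat.card_congr (Subgroup.equivMapOfInjective _ _ X.subtype_injective).toEquiv]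
      exact R₀.card_eq_multiplicity
    obtain ⟨c, hc⟩ := MulAction.exists_smul_eq X R₀ (Sylow.ofCard (S.subgroupOf X) hcS)
    have hcS' : MulAut.conj (c : (AddMonoid.End V)ˣ) • R = S := by
      rw [hR, ← CoprimeAction.map_conj_subtype]
      have h2' : MulAut.conj c • (R₀ : Subgroup ↥X) = S.subgroupOf X := by
        have := congrArg (fun Q : Sylow r X => (Q : Subgroup X)) hc
        simpa [Sylow.coe_subgroup_smul] using this
      rw [h2', Subgroup.map_subgroupOf_eq_of_le hS]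
    obtain ⟨k, hk, hkc⟩ := c.2
    refine ⟨k⁻¹ * n, ?_, by rw [map_mul, map_inv, MonoidHom.mem_ker.1 hk, inv_one, one_mul]⟩
    rw [hP, Subgroup.mem_comap, map_mul, map_inv, hkc]
    refine CoprimeAction.mem_normalizer_of_conj_mem fun x hx => ?_
    have : ρ n * x * (ρ n)⁻¹ ∈ MulAut.conj (c : (AddMonoid.End V)ˣ) • R := by
      rw [hcS']
      exact CoprimeAction.mem_conj_iff.2 (by simpa [mul_assoc] using hx)
    have h' := CoprimeAction.mem_conj_iff.1 this
    simpa [mul_assoc] using h'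
  -- the elementary abelian central subgroup
  let A : Subgroup (AddMonoid.End V)ˣ :=
    { carrier := {x | x ∈ R ∧ x ^ r = 1 ∧ ∀ y ∈ R, x * y = y * x}
      one_mem' := ⟨R.one_mem, one_pow r, fun y _ => by simp⟩
      mul_mem' := fun {a b} ha hb => ⟨R.mul_mem ha.1 hb.1,
        by rw [Commute.mul_pow (ha.2.2 b hb.1), ha.2.1, hb.2.1, one_mul],
        fun y hy => (Commute.mul_left (ha.2.2 y hy) (hb.2.2 y hy)).eq⟩
      inv_mem' := fun {a} ha => ⟨R.inv_mem ha.1, by rw [inv_pow, ha.2.1, inv_one],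
        fun y hy => (Commute.inv_left (ha.2.2 y hy)).eq⟩ }
  have hAR : A ≤ R := fun x hx => hx.1
  have hAX : A ≤ X := hAR.trans hRX
  have hA1 : A ≠ ⊥ := by
    have hRp : IsPGroup r ↥R := R₀.isPGroup'.map _
    haveI : Nontrivial ↥R := by
      rw [Subgroup.nontrivial_iff_ne_bot]
      intro h
      have h1 : (R₀ : Subgroup ↥X) = ⊥ := by
        rw [← Subgroup.map_eq_bot_iff_of_injective _ X.subtype_injective]
        exact h
      have h2' := R₀.card_eq_multiplicity
      rw [h1, Subgroup.card_bot] at h2'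
      have h3 := hr.factorization_pos_of_dvd Nat.card_pos.ne' hrX
      exact absurd h2'.symm (Nat.one_lt_pow h3.ne' hr.one_lt).ne'
    haveI := hRp.center_nontrivial
    obtain ⟨z, hz⟩ := exists_ne (1 : ↥(center ↥R))
    obtain ⟨e, he⟩ := IsPGroup.iff_card.1 (hRp.to_subgroup (center ↥R))
    have he0 : e ≠ 0 := fun h0 => by
      rw [h0, pow_zero] at he
      exact hz ((Nat.card_eq_one_iff_unique.1 he).1.elim z 1)
    obtain ⟨y, hy⟩ := exists_prime_orderOf_dvd_card' r (G := ↥(center ↥R)) (by rw [he]; exact dvd_pow_self r he0)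
    intro hbot
    have hyA : ((y : ↥R) : (AddMonoid.End V)ˣ) ∈ A := by
      refine ⟨(y : ↥R).2, ?_, fun u hu => ?_⟩
      · have := pow_orderOf_eq_one y
        rw [hy] at this
        exact congrArg (fun z : ↥(center ↥R) => ((z : ↥R) : (AddMonoid.End V)ˣ)) this
      · exact congrArg Subtype.val ((Subgroup.mem_center_iff.1 y.2 ⟨u, hu⟩).symm)
    rw [hbot, Subgroup.mem_bot] at hyA
    have : y = 1 := Subtype.ext (Subtype.ext hyA)
    rw [this, orderOf_one] at hy
    exact hr.one_lt.ne hy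
  have hAnorm : ∀ p ∈ P, ρ p ∈ normalizer (A : Set (AddMonoid.End V)ˣ) := by
    intro p hp
    refine CoprimeAction.mem_normalizer_of_conj_mem fun x hx => ⟨mem_normalizer_iff.1 hp x |>.1 hx.1, ?_, fun y hy => ?_⟩
    · rw [conj_pow, hx.2.1, mul_one, mul_inv_cancel]
    · have h := hx.2.2 _ (by simpa using mem_normalizer_iff.1 (inv_mem hp) y |>.1 hy)
      calc ρ p * x * (ρ p)⁻¹ * y = ρ p * (x * ((ρ p)⁻¹ * y * ρ p)) * (ρ p)⁻¹ := by group
        _ = ρ p * ((ρ p)⁻¹ * y * ρ p * x) * (ρ p)⁻¹ := by rw [h]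
        _ = y * (ρ p * x * (ρ p)⁻¹) := by group
  have hcomm : ∀ a ∈ A, ∀ b ∈ A, a * b = b * a := fun a ha b hb => ha.2.2 b hb.1
  have hYodd : ∀ {Y : Subgroup (AddMonoid.End V)ˣ}, Y ≤ A → Odd (Nat.card ↥Y) := fun {Y} hY =>
    Odd.of_dvd_nat hodd (Subgroup.card_dvd_of_le (hY.trans hAX))
  -- every non-zero invariant subgroup contains `w`
  have hfixw : ∀ U : AddSubgroup V, (∀ t ∈ T, ∀ u ∈ U, (ρ t : AddMonoid.End V) u ∈ U) → U ≠ ⊥ → w ∈ U := by
    intro U hU hne
    letI : MulAction ↥T ↥U :=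
      { smul := fun t u => ⟨(ρ (t : Γ) : AddMonoid.End V) (u : V), hU _ t.2 _ u.2⟩
        one_smul := fun u => Subtype.ext (by
          show (ρ ((1 : ↥T) : Γ) : AddMonoid.End V) (u : V) = _
          rw [Subgroup.coe_one, map_one]; rfl)
        mul_smul := fun s t u => Subtype.ext (by
          show (ρ ((s * t : ↥T) : Γ) : AddMonoid.End V) (u : V) = _
          rw [Subgroup.coe_mul, map_mul]; rfl) }
    have hev : 2 ∣ Nat.card ↥U := by
      obtain ⟨u, hu, hu0⟩ := (AddSubgroup.bot_or_exists_ne_zero U).resolve_left hne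
      have h1 : addOrderOf (⟨u, hu⟩ : ↥U) = 2 :=
        addOrderOf_eq_prime (Subtype.ext (by simp [two_nsmul, h2])) (fun h => hu0 (congrArg Subtype.val h))
      exact h1 ▸ addOrderOf_dvd_natCard _
    obtain ⟨u, hu, hu0⟩ := hT.exists_fixed_point_of_prime_dvd_card_of_fixed_point ↥U hev
      (a := 0) (fun t => Subtype.ext (map_zero _))
    rcases huniq (u : V) (fun t ht => congrArg Subtype.val (hu ⟨t, ht⟩)) with h | h
    · exact absurd (Subtype.ext h.symm) hu0
    · exact h ▸ u.2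
  have hfix_inv : ∀ {Y : Subgroup (AddMonoid.End V)ˣ} {g : (AddMonoid.End V)ˣ},
      g ∈ normalizer (Y : Set (AddMonoid.End V)ˣ) → ∀ u ∈ fix Y, (g : AddMonoid.End V) u ∈ fix Y := by
    intro Y g hg u hu y hy
    have h := hu _ (mem_normalizer_iff.1 (inv_mem hg) y |>.1 hy)
    rw [inv_inv, act_mul, act_mul] at h
    calc (y : AddMonoid.End V) ((g : AddMonoid.End V) u)
        = (g : AddMonoid.End V) (((g⁻¹ : (AddMonoid.End V)ˣ) : AddMonoid.End V)
            ((y : AddMonoid.End V) ((g : AddMonoid.End V) u))) := by rw [← act_mul g, mul_inv_cancel, act_one]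
      _ = _ := by rw [h]
  -- an invariant subgroup of automorphisms with fixed vectors is trivial
  have hL : ∀ Y ≤ A, (∀ t ∈ T, ρ t ∈ normalizer (Y : Set (AddMonoid.End V)ˣ)) → fix Y ≠ ⊥ → Y = ⊥ := by
    intro Y hY hinv hne
    have hwY : w ∈ fix Y := hfixw _ (fun t ht => hfix_inv (hinv t ht)) hne
    have hk : (norm Y).ker = ⊥ := by
      by_contra h
      have h' := hfixw _ (fun t ht u hu => by
        rw [AddMonoidHom.mem_ker] at hu ⊢
        rw [norm_conj (hinv t ht), hu, map_zero]) h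
      rw [AddMonoidHom.mem_ker, norm_of_fix h2 (hYodd hY) hwY] at h'
      exact hw h'
    rw [eq_bot_iff]
    intro y hy
    refine Subgroup.mem_bot.2 (Units.ext (AddMonoidHom.ext fun v => ?_))
    have h1 : v - norm Y v ∈ (norm Y).ker := by
      rw [AddMonoidHom.mem_ker, map_sub, norm_of_fix h2 (hYodd hY) (norm_mem_fix Y v), sub_self]
    rw [hk, AddSubgroup.mem_bot, sub_eq_zero] at h1
    show (y : AddMonoid.End V) v = v
    rw [h1]
    exact norm_mem_fix Y v y hy
  have hCA : fix A = ⊥ := by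
    by_contra h
    exact hA1 (hL A le_rfl (fun t ht => hAnorm t (hTP ht)) h)
  have hTnorm : ∀ Y : Subgroup (AddMonoid.End V)ˣ, ∀ p ∈ P, ∀ v : V, v ∈ fix Y →
      (ρ p : AddMonoid.End V) v ∈ fix (MulAut.conj (ρ p) • Y) := by
    intro Y p _ v hv z hz
    obtain ⟨y, hy, rfl⟩ := hz
    show (((ρ p) * y * (ρ p)⁻¹ : (AddMonoid.End V)ˣ) : AddMonoid.End V) _ = _
    rw [act_mul, act_mul, act_inv_cancel, hv y hy]
  -- the maximal subgroups with fixed vectors
  let Ys := {Y : Subgroup (AddMonoid.End V)ˣ // Y ≤ A ∧ fix Y ≠ ⊥ ∧ ∀ Y' ≤ A, Y < Y' → fix Y' = ⊥}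
  have horth : ∀ Y Y' : Ys, Y ≠ Y' → ∀ v ∈ fix Y'.1, norm Y.1 v = 0 := by
    intro Y Y' hne v hv
    have hlt : Y.1 < Y.1 ⊔ Y'.1 := by
      refine lt_of_le_of_ne le_sup_left fun e => hne ?_
      have hle : Y'.1 ≤ Y.1 := e ▸ le_sup_right
      rcases hle.eq_or_lt with e' | e'
      · exact Subtype.ext e'.symm
      · exact absurd (Y'.2.2.2 _ Y.2.1 e') Y.2.2.1
    have h0 := Y.2.2.2 _ (sup_le Y.2.1 Y'.2.1) hlt
    have hmem : norm Y.1 v ∈ fix (Y.1 ⊔ Y'.1) := by
      intro z hz
      have hle : Y.1 ⊔ Y'.1 ≤ MulAction.stabilizer (AddMonoid.End V)ˣ (norm Y.1 v) := by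
        refine sup_le (fun y hy => norm_mem_fix Y.1 v y hy) fun y hy => ?_
        show (y : AddMonoid.End V) (norm Y.1 v) = _
        rw [← norm_conj (CoprimeAction.mem_normalizer_of_conj_mem fun x hx => by
          rw [hcomm y (Y'.2.1 hy) x (Y.2.1 hx), mul_assoc, mul_inv_cancel, mul_one]; exact hx), hv y hy]
      exact hle hz
    rwa [h0, AddSubgroup.mem_bot] at hmem
  let _ := Fintype.ofFinite Ys
  have hYcard : Nat.card Ys ≤ 5 := by
    have hinj : Function.Injective fun u : (Y : Ys) → ↥(fix Y.1) => ∑ Y : Ys, (u Y : V) := by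
      intro u u' h
      funext Y
      refine Subtype.ext ?_
      have key : ∀ u : (Y : Ys) → ↥(fix Y.1), norm Y.1 (∑ Y' : Ys, (u Y' : V)) = (u Y : V) := fun u => by
        rw [map_sum, Finset.sum_eq_single Y]
        · exact norm_of_fix h2 (hYodd Y.2.1) (u Y).2
        · exact fun Y' _ hne => horth Y Y' hne.symm _ (u Y').2
        · simp
      rw [← key u, ← key u']
      exact congrArg (norm Y.1) h
    have h3 : ∀ Y : Ys, 3 ≤ Nat.card ↥(fix Y.1) := by
      intro Y
      obtain ⟨v, hv, hv0⟩ := (AddSubgroup.bot_or_exists_ne_zero (fix Y.1)).resolve_left Y.2.2.1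
      by_contra hlt
      have hsub : ∀ u ∈ fix Y.1, u = 0 ∨ u = v := by
        intro u hu
        by_contra hh
        push Not at hh
        let f : Fin 3 → ↥(fix Y.1) := ![0, ⟨v, hv⟩, ⟨u, hu⟩]
        have hf : Function.Injective f := by
          intro i j hij
          have := congrArg Subtype.val hij
          fin_cases i <;> fin_cases j <;>
            simp [f, hv0, Ne.symm hv0, hh.1, hh.2, Ne.symm hh.1, Ne.symm hh.2] at this ⊢
        have := Nat.card_le_card_of_injective f hf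
        simp at this
        omega
      have hvA : v ∈ fix A := by
        intro a ha
        have h1 : (a : AddMonoid.End V) v ∈ fix Y.1 :=
          hfix_inv (CoprimeAction.mem_normalizer_of_conj_mem fun x hx => by
            rw [hcomm a ha x (Y.2.1 hx), mul_assoc, mul_inv_cancel, mul_one]; exact hx) v hv
        refine (hsub _ h1).resolve_left fun h0 => hv0 ?_
        rw [← act_inv_cancel a v, h0, map_zero]
      rw [hCA, AddSubgroup.mem_bot] at hvA
      exact hv0 hvA
    have h1 := Nat.card_le_card_of_injective _ hinj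
    rw [Nat.card_pi] at h1
    have h2' : (3 : ℕ) ^ Nat.card Ys ≤ ∏ Y : Ys, Nat.card ↥(fix Y.1) := by
      rw [Nat.card_eq_fintype_card, ← Finset.card_univ]
      exact Finset.pow_card_le_prod _ _ _ fun Y _ => h3 Y
    by_contra hgt
    have := Nat.pow_le_pow_right (show 0 < 3 by norm_num) (show 6 ≤ Nat.card Ys by omega)
    omega
  -- the permutation action
  have hmap : ∀ p : ↥P, ∀ Y : Ys, (MulAut.conj (ρ (p : Γ)) • Y.1 ≤ A ∧ fix (MulAut.conj (ρ (p : Γ)) • Y.1) ≠ ⊥ ∧
      ∀ Y' ≤ A, MulAut.conj (ρ (p : Γ)) • Y.1 < Y' → fix Y' = ⊥) := by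
    intro p Y
    refine ⟨CoprimeAction.conj_smul_le (hAnorm p p.2) Y.2.1, fun h => Y.2.2.1 ?_, fun Y' hY' hlt => ?_⟩
    · rw [eq_bot_iff]
      intro v hv
      have := hTnorm Y.1 p p.2 v hv
      rw [h, AddSubgroup.mem_bot] at this
      rw [AddSubgroup.mem_bot, ← act_inv_cancel (ρ (p : Γ)) v, this, map_zero]
    · have h1 : MulAut.conj (ρ ((p⁻¹ : ↥P) : Γ)) • Y' ≤ A :=
        CoprimeAction.conj_smul_le (hAnorm _ (p⁻¹).2) hY'
      have h2' : Y.1 < MulAut.conj (ρ ((p⁻¹ : ↥P) : Γ)) • Y' := by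
        rw [Subgroup.coe_inv, map_inv, map_inv]
        refine lt_of_le_of_ne (Subgroup.pointwise_smul_subset_iff.1 hlt.le) fun e => hlt.ne ?_
        rw [e, smul_inv_smul]
      have h3 := Y.2.2.2 _ h1 h2'
      rw [eq_bot_iff]
      intro v hv
      have := hTnorm Y' (p⁻¹ : ↥P) (p⁻¹).2 v hv
      rw [h3, AddSubgroup.mem_bot] at this
      rw [AddSubgroup.mem_bot, ← act_inv_cancel (ρ ((p⁻¹ : ↥P) : Γ)) v, this, map_zero]
  letI act : MulAction ↥P Ys :=
    { smul := fun p Y => ⟨MulAut.conj (ρ (p : Γ)) • Y.1, hmap p Y⟩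
      one_smul := fun Y => Subtype.ext (by
        show MulAut.conj (ρ ((1 : ↥P) : Γ)) • Y.1 = _
        rw [Subgroup.coe_one, map_one, map_one, one_smul])
      mul_smul := fun p q Y => Subtype.ext (by
        show MulAut.conj (ρ ((p * q : ↥P) : Γ)) • Y.1 = MulAut.conj (ρ (p : Γ)) • MulAut.conj (ρ (q : Γ)) • Y.1
        rw [Subgroup.coe_mul, map_mul, map_mul, mul_smul]) }
  have hTfix : ∀ Y : Ys, ∀ t ∈ T, ρ t ∈ normalizer (Y.1 : Set (AddMonoid.End V)ˣ) := by
    intro Y t ht
    let f : ↥P →* Equiv.Perm Ys := MulAction.toPermHom ↥P Ys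
    have hf : f ⟨t, hTP ht⟩ = 1 := by
      refine kill ρ φ T f hT hsur (fun p hp => Equiv.ext fun Z => Subtype.ext ?_) hodd ?_ ⟨t, hTP ht⟩ ht
      · show MulAut.conj (ρ (p : Γ)) • Z.1 = Z.1
        rw [hp, map_one, one_smul]
      · by_contra hne
        push Not at hne
        have hle : f.ker ≤ (φ.comp P.subtype).ker := fun p hp => by
          rw [MonoidHom.mem_ker, MonoidHom.comp_apply]
          by_contra h
          exact hne p h hp
        have h1 := Nat.le_of_dvd (Nat.pos_of_ne_zero Subgroup.index_ne_zero_of_finite)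
          (Subgroup.index_dvd_of_le hle)
        have hs : Function.Surjective (φ.comp P.subtype) := fun h => by
          obtain ⟨p, hp, e⟩ := hsur h
          exact ⟨⟨p, hp⟩, e⟩
        rw [Subgroup.index_ker, Subgroup.index_ker, MonoidHom.range_eq_top.2 hs, Subgroup.card_top] at h1
        have h2' : Nat.card ↥f.range ≤ Nat.card (Equiv.Perm Ys) := Subgroup.card_le_card_group _
        rw [Nat.card_perm] at h2'
        have h3 := Nat.factorial_le hYcard
        rw [show Nat.factorial 5 = 120 from rfl] at h3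
        omega
    have h := congrArg Subtype.val (Equiv.ext_iff.1 hf Y)
    change MulAut.conj (ρ t) • Y.1 = Y.1 at h
    refine CoprimeAction.mem_normalizer_of_conj_mem fun x hx => ?_
    rw [← h]
    exact ⟨x, hx, rfl⟩
  -- all non-trivial subgroups act without fixed vectors
  have hfree : ∀ Y ≤ A, fix Y ≠ ⊥ → Y = ⊥ := by
    intro Y hY hne
    obtain ⟨M, hYM, hM⟩ := (Set.toFinite {Z : Subgroup (AddMonoid.End V)ˣ | Z ≤ A ∧ fix Z ≠ ⊥}).exists_le_maximal
      ⟨hY, hne⟩
    let M' : Ys := ⟨M, hM.prop.1, hM.prop.2, fun Z hZ hlt => by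
      by_contra h
      exact hlt.not_ge (hM.2 ⟨hZ, h⟩ hlt.le)⟩
    exact le_bot_iff.1 ((hL M hM.prop.1 (hTfix M') hM.prop.2) ▸ hYM)
  have hsum0 : ∀ x ∈ A, x ≠ 1 → ∀ v : V, ∑ j ∈ Finset.range r, ((x ^ j : (AddMonoid.End V)ˣ) : AddMonoid.End V) v = 0 := by
    intro x hx hx1 v
    have hmem : ∑ j ∈ Finset.range r, ((x ^ j : (AddMonoid.End V)ˣ) : AddMonoid.End V) v ∈ fix (zpowers x) := by
      intro y hy
      have hle : zpowers x ≤ MulAction.stabilizer (AddMonoid.End V)ˣ
          (∑ j ∈ Finset.range r, ((x ^ j : (AddMonoid.End V)ˣ) : AddMonoid.End V) v) := by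
        rw [zpowers_le, MulAction.mem_stabilizer_iff]
        show (x : AddMonoid.End V) _ = _
        rw [map_sum]
        have h : ∀ j, (x : AddMonoid.End V) (((x ^ j : (AddMonoid.End V)ˣ) : AddMonoid.End V) v) =
            ((x ^ (j + 1) : (AddMonoid.End V)ˣ) : AddMonoid.End V) v := fun j => by rw [← act_mul, ← pow_succ']
        simp only [h]
        have e1 := Finset.sum_range_succ' (fun j => ((x ^ j : (AddMonoid.End V)ˣ) : AddMonoid.End V) v) r
        have e2 := Finset.sum_range_succ (fun j => ((x ^ j : (AddMonoid.End V)ˣ) : AddMonoid.End V) v) r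
        rw [e2, hx.2.1, pow_zero] at e1
        exact add_right_cancel e1.symm
      exact hle hy
    by_contra h
    exact hx1 (Subgroup.zpowers_eq_bot.1 (hfree _ (zpowers_le.2 hx) fun e => h (by
      rwa [e, AddSubgroup.mem_bot] at hmem)))
  -- hence cyclic
  obtain ⟨a, ha, ha1⟩ := (Subgroup.bot_or_exists_ne_one A).resolve_left hA1
  have hcyc : A = zpowers a := by
    refine le_antisymm (fun b hb => ?_) (zpowers_le.2 ha)
    by_contra hb'
    have hne : ∀ i : ℕ, a ^ i * b ≠ 1 := fun i h => hb' (by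
      rw [eq_inv_of_mul_eq_one_right h]
      exact inv_mem (npow_mem_zpowers a i))
    refine hw ?_
    have h1 : ∑ i ∈ Finset.range r, ∑ j ∈ Finset.range r,
        (((a ^ i * b) ^ j : (AddMonoid.End V)ˣ) : AddMonoid.End V) w = 0 :=
      Finset.sum_eq_zero fun i _ => hsum0 _ (A.mul_mem (A.pow_mem ha i) hb) (hne i) w
    rw [Finset.sum_comm, Finset.sum_eq_single 0] at h1
    · simp only [pow_zero, act_one, Finset.sum_const, Finset.card_range, nsmul_odd h2 hrodd] at h1
      exact h1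
    · intro j hj hj0
      have hcab : ∀ i : ℕ, (a ^ i * b) ^ j = (a ^ j) ^ i * b ^ j := fun i => by
        rw [Commute.mul_pow (hcomm _ (A.pow_mem ha i) _ hb), ← pow_mul, ← pow_mul, mul_comm i j]
      simp only [hcab, act_mul]
      refine hsum0 _ (A.pow_mem ha j) ?_ _
      intro e
      have h3 := orderOf_dvd_of_pow_eq_one e
      rw [orderOf_eq_prime ha.2.1 ha1] at h3
      have := Nat.le_of_dvd (Nat.pos_of_ne_zero hj0) h3
      have := Finset.mem_range.1 hj
      omega
    · exact fun h => absurd (Finset.mem_range.2 hr.pos) h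
  -- so the 2-subgroup centralises it
  have hTc : ∀ t ∈ T, ρ t * a * (ρ t)⁻¹ = a := by
    intro t ht
    let f : ↥P →* MulAut ↥A := (A.normalizerMonoidHom).comp
      ((ρ.comp P.subtype).codRestrict _ fun p => hAnorm p p.2)
    have hfval : ∀ (p : ↥P) (x : ↥A), ((f p x : ↥A) : (AddMonoid.End V)ˣ) = ρ (p : Γ) * x * (ρ (p : Γ))⁻¹ :=
      fun p x => rfl
    haveI : IsCyclic ↥A := by rw [hcyc]; infer_instance
    have hab : ∀ σ τ : MulAut ↥A, σ * τ = τ * σ := by
      intro σ τ
      obtain ⟨i, hi⟩ := MonoidHom.map_cyclic σ.toMonoidHom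
      obtain ⟨j, hj⟩ := MonoidHom.map_cyclic τ.toMonoidHom
      have hi' : ∀ x : ↥A, σ x = x ^ i := hi
      have hj' : ∀ x : ↥A, τ x = x ^ j := hj
      refine MulEquiv.ext fun x => ?_
      show σ (τ x) = τ (σ x)
      rw [hi', hj', hj', hi', ← zpow_mul, ← zpow_mul, mul_comm i j]
    have hf : f ⟨t, hTP ht⟩ = 1 := by
      refine kill ρ φ T f hT hsur (fun p hp => MulEquiv.ext fun x => Subtype.ext ?_) hodd ?_ ⟨t, hTP ht⟩ ht
      · rw [hfval, hp]; simp
      · obtain ⟨h₁, h₂, hne⟩ := hnc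
        obtain ⟨p₁, hp₁, rfl⟩ := hsur h₁
        obtain ⟨p₂, hp₂, rfl⟩ := hsur h₂
        refine ⟨⟨p₁, hp₁⟩ * ⟨p₂, hp₂⟩ * (⟨p₁, hp₁⟩ : ↥P)⁻¹ * (⟨p₂, hp₂⟩ : ↥P)⁻¹, fun h => hne ?_, ?_⟩
        · simp only [Subgroup.coe_mul, Subgroup.coe_inv, map_mul, map_inv] at h
          rwa [mul_inv_eq_one, mul_inv_eq_iff_eq_mul] at h
        · rw [map_mul, map_mul, map_mul, map_inv, map_inv, hab (f ⟨p₁, hp₁⟩) (f ⟨p₂, hp₂⟩)]
          group
    have := congrArg (fun σ : MulAut ↥A => ((σ ⟨a, ha⟩ : ↥A) : (AddMonoid.End V)ˣ)) hf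
    simpa [hfval] using this
  have hav : (a : AddMonoid.End V) w = w := by
    have hfixed : ∀ t ∈ T, (ρ t : AddMonoid.End V) ((a : AddMonoid.End V) w) = (a : AddMonoid.End V) w := by
      intro t ht
      rw [← act_mul, mul_inv_eq_iff_eq_mul.1 (hTc t ht), act_mul, hwT t ht]
    refine (huniq _ hfixed).resolve_left fun h => hw ?_
    rw [← act_inv_cancel a w, h, map_zero]
  have hwA : w ∈ fix A := by
    intro y hy
    rw [hcyc] at hy
    exact (zpowers_le.2 (show a ∈ MulAction.stabilizer (AddMonoid.End V)ˣ w from hav)) hy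
  rw [hCA, AddSubgroup.mem_bot] at hwA
  exact hw hwA

end Abstract

section MulAut

/-- The automorphism group of an elementary abelian group of order eight. -/
theorem mulAut_equiv_gl {D : Type*} [Group D] [Finite D] (hexp : ∀ x : D, x * x = 1) (h8 : Nat.card D = 8) :
    Nonempty (MulAut D ≃* GL (Fin 3) (ZMod 2)) := by
  letI : CommGroup D := { ‹Group D› with
    mul_comm := fun a b => by
      have h := hexp (a * b)
      have ha : a⁻¹ = a := inv_eq_of_mul_eq_one_right (hexp a)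
      have hb : b⁻¹ = b := inv_eq_of_mul_eq_one_right (hexp b)
      calc a * b = (a * b)⁻¹ := (inv_eq_of_mul_eq_one_right h).symm
        _ = b * a := by rw [mul_inv_rev, ha, hb] }
  letI : Module (ZMod 2) (Additive D) := AddCommGroup.zmodModule (n := 2) (fun x => by
    apply Additive.toMul.injective
    rw [toMul_nsmul, toMul_zero, pow_two]
    exact hexp _)
  haveI : Finite (Additive D) := inferInstanceAs (Finite D)
  have hdim : Module.finrank (ZMod 2) (Additive D) = 3 := by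
    have h := Module.natCard_eq_pow_finrank (K := ZMod 2) (V := Additive D)
    rw [Nat.card_congr (Additive.toMul (α := D)), h8, Nat.card_zmod] at h
    exact (Nat.pow_right_injective le_rfl
      (show 2 ^ 3 = 2 ^ Module.finrank (ZMod 2) (Additive D) from h)).symm
  let b : Module.Basis (Fin 3) (ZMod 2) (Additive D) := Module.finBasisOfFinrankEq _ _ hdim
  let Φ : MulAut D →* GL (Fin 3) (ZMod 2) := MonoidHom.toHomUnits
    { toFun := fun f => LinearMap.toMatrixAlgEquiv b (f.toMonoidHom.toAdditive.toZModLinearMap 2)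
      map_one' := by
        rw [← map_one (LinearMap.toMatrixAlgEquiv b)]
        rfl
      map_mul' := fun f g => by
        rw [← map_mul]
        rfl }
  refine ⟨MulEquiv.ofBijective Φ ⟨fun f g h => ?_, fun M => ?_⟩⟩
  · have h1 : f.toMonoidHom.toAdditive.toZModLinearMap 2 = g.toMonoidHom.toAdditive.toZModLinearMap 2 :=
      (LinearMap.toMatrixAlgEquiv b).injective (congrArg Units.val h)
    exact MulEquiv.ext fun x => congrArg Additive.toMul (LinearMap.congr_fun h1 (Additive.ofMul x))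
  · let E := LinearMap.GeneralLinearGroup.generalLinearEquiv (ZMod 2) (Additive D)
      (Units.map (LinearMap.toMatrixAlgEquiv b).symm.toMonoidHom M)
    refine ⟨MulEquiv.toAdditive.symm E.toAddEquiv, Units.ext ?_⟩
    apply (LinearMap.toMatrixAlgEquiv b).symm.injective
    show (LinearMap.toMatrixAlgEquiv b).symm (LinearMap.toMatrixAlgEquiv b _) = _
    rw [AlgEquiv.symm_apply_apply]
    rfl

end MulAut

variable {G : Type*} [Group G] [Finite G] {T : Sylow 2 G} {W D : Subgroup G}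

theorem Setup.mem_normalizer_W (S : Setup T W D) {t : G} (ht : t ∈ (T : Subgroup G)) :
    t ∈ normalizer (W : Set G) :=
  CoprimeAction.mem_normalizer_of_conj_mem fun w hw => S.conj_W t ht w hw

/-- The elements of the normaliser centralising `D` act trivially on `W / D`. -/
theorem Setup.centralizes_quotient (S : Setup T W D)
    (hfull : ∀ f : MulAut ↥D, ∃ n ∈ normalizer (W : Set G), ∀ d : ↥D, n * (d : G) * n⁻¹ = (f d : G)) :
    ∀ c ∈ normalizer (W : Set G) ⊓ centralizer (D : Set G), ∀ w ∈ W, c * w * c⁻¹ * w⁻¹ ∈ D := by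
  classical
  set N : Subgroup G := normalizer (W : Set G) with hN
  have hWN : W ≤ N := Subgroup.le_normalizer
  have hND : ∀ n ∈ N, n ∈ normalizer (D : Set G) := by
    intro n hn
    have hW : W.map (MulAut.conj n).toMonoidHom = W := by
      ext x
      constructor
      · rintro ⟨y, hy, rfl⟩; exact mem_normalizer_iff.1 hn y |>.1 hy
      · intro hx
        exact ⟨n⁻¹ * x * n, by simpa using mem_normalizer_iff.1 (inv_mem hn) x |>.1 hx, by simp [mul_assoc]⟩
    refine CoprimeAction.mem_normalizer_of_conj_mem fun x hx => ?_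
    rw [← S.comm_eq] at hx ⊢
    have h := Subgroup.mem_map_of_mem (MulAut.conj n).toMonoidHom hx
    rw [Subgroup.map_commutator, hW] at h
    exact h
  haveI hDn : (D.subgroupOf W).Normal := ⟨fun x hx g => by
    rw [Subgroup.mem_subgroupOf] at hx ⊢
    rw [Subgroup.coe_mul, Subgroup.coe_mul, Subgroup.coe_inv, S.central _ hx _ g.2]
    simpa using hx⟩
  -- the quotient as an additive group
  letI : CommGroup (↥W ⧸ D.subgroupOf W) :=
    { (inferInstance : Group (↥W ⧸ D.subgroupOf W)) with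
      mul_comm := fun a b => by
        induction a using QuotientGroup.induction_on with
        | H a =>
          induction b using QuotientGroup.induction_on with
          | H b =>
            rw [← QuotientGroup.mk_mul, ← QuotientGroup.mk_mul, QuotientGroup.eq, Subgroup.mem_subgroupOf]
            have h := S.comm_W (b : G)⁻¹ (W.inv_mem b.2) (a : G)⁻¹ (W.inv_mem a.2)
            simpa [mul_assoc] using h }
  let V := Additive (↥W ⧸ D.subgroupOf W)
  let cls : ↥W → V := fun w => Additive.ofMul (w : ↥W ⧸ D.subgroupOf W)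
  have hsurj : ∀ v : V, ∃ w, cls w = v := fun v => by
    obtain ⟨w, hw⟩ := QuotientGroup.mk_surjective (Additive.toMul v)
    exact ⟨w, congrArg Additive.ofMul hw⟩
  have hcls : ∀ v w : ↥W, cls v = cls w ↔ (v : G)⁻¹ * (w : G) ∈ D := fun v w => by
    show Additive.ofMul _ = Additive.ofMul _ ↔ _
    rw [Additive.ofMul.injective.eq_iff, QuotientGroup.eq, Subgroup.mem_subgroupOf]
    rfl
  have hcls0 : cls 1 = 0 := rfl
  let conj : ↥N →* MulAut ↥W := W.normalizerMonoidHom
  have hconj : ∀ (n : ↥N) (w : ↥W), ((conj n w : ↥W) : G) = n * w * (n : G)⁻¹ := fun n w => rfl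
  have hle : ∀ n : ↥N, D.subgroupOf W ≤ (D.subgroupOf W).comap (conj n).toMonoidHom := fun n x hx => by
    rw [Subgroup.mem_comap, Subgroup.mem_subgroupOf]
    exact mem_normalizer_iff.1 (hND n n.2) x |>.1 hx
  let ρ : ↥N →* (AddMonoid.End V)ˣ := MonoidHom.toHomUnits
    { toFun := fun n => MonoidHom.toAdditive (QuotientGroup.map _ _ (conj n).toMonoidHom (hle n))
      map_one' := by
        refine AddMonoidHom.ext fun v => ?_
        obtain ⟨w, rfl⟩ := hsurj v
        show cls (conj 1 w) = cls w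
        rw [map_one]; rfl
      map_mul' := fun m n => by
        refine AddMonoidHom.ext fun v => ?_
        obtain ⟨w, rfl⟩ := hsurj v
        show cls (conj (m * n) w) = cls (conj m (conj n w))
        rw [map_mul]; rfl }
  have hρ : ∀ (n : ↥N) (w : ↥W), (ρ n : AddMonoid.End V) (cls w) = cls (conj n w) := fun n w => rfl
  have hfix : ∀ (n : ↥N) (w : ↥W), (ρ n : AddMonoid.End V) (cls w) = cls w ↔
      (n : G) * w * (n : G)⁻¹ * (w : G)⁻¹ ∈ D := fun n w => by
    rw [hρ, eq_comm, hcls, hconj]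
    set u := (w : G)⁻¹ * ((n : G) * w * (n : G)⁻¹) with hu
    constructor
    · intro h
      have e := S.central u h w w.2
      rwa [show (n : G) * w * (n : G)⁻¹ * (w : G)⁻¹ = w * u * (w : G)⁻¹ by rw [hu]; group, e, mul_assoc,
        mul_inv_cancel, mul_one]
    · intro h
      set z := (n : G) * w * (n : G)⁻¹ * (w : G)⁻¹ with hz
      have e := S.central z h w w.2
      rwa [show u = (w : G)⁻¹ * (z * w) by rw [hu, hz]; group, ← e, ← mul_assoc, inv_mul_cancel, one_mul]
  -- the map onto the automorphisms of `D`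
  let φ : ↥N →* MulAut ↥D := D.normalizerMonoidHom.comp (Subgroup.inclusion fun n hn => hND n hn)
  have hφker : ∀ n : ↥N, n ∈ φ.ker ↔ (n : G) ∈ centralizer (D : Set G) := fun n => by
    rw [MonoidHom.mem_ker, MonoidHom.comp_apply, ← MonoidHom.mem_ker, Subgroup.normalizerMonoidHom_ker]
    rfl
  have hφ : Function.Surjective φ := fun f => by
    obtain ⟨n, hn, hnd⟩ := hfull f
    exact ⟨⟨n, hn⟩, MulEquiv.ext fun d => Subtype.ext (hnd d)⟩
  obtain ⟨eGL⟩ := mulAut_equiv_gl (D := ↥D) (fun x => Subtype.ext (S.sq_D x x.2)) S.card_D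
  haveI : Finite (MulAut ↥D) := Finite.of_injective _ DFunLike.coe_injective
  haveI : IsSimpleGroup (MulAut ↥D) := by
    haveI := CfsgLib.Generators.SmallPermGroups.isSimple_GL3
    exact eGL.isSimpleGroup
  have hcard : 120 < Nat.card (MulAut ↥D) := by
    rw [Nat.card_congr eGL.toEquiv, CfsgLib.Generators.SmallPermGroups.card_GL3]; norm_num
  have hnc : ∃ a b : MulAut ↥D, a * b ≠ b * a := by
    by_contra! h
    letI : CommGroup (MulAut ↥D) := { (inferInstance : Group (MulAut ↥D)) with mul_comm := h }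
    have := IsSimpleGroup.prime_card (α := MulAut ↥D)
    rw [Nat.card_congr eGL.toEquiv, CfsgLib.Generators.SmallPermGroups.card_GL3] at this
    norm_num at this
  -- the Sylow subgroup
  have hTN : (T : Subgroup G) ≤ N := fun t ht => S.mem_normalizer_W ht
  set T' : Subgroup ↥N := (T : Subgroup G).subgroupOf N
  have hT' : IsPGroup 2 ↥T' := T.isPGroup'.of_equiv (Subgroup.subgroupOfEquivOfLe hTN).symm
  -- the image of the kernel has odd order
  have hWρ : ∀ n : ↥N, (n : G) ∈ W → ρ n = 1 := fun n hn => by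
    refine Units.ext (AddMonoidHom.ext fun v => ?_)
    obtain ⟨w, rfl⟩ := hsurj v
    exact (hfix n w).2 (S.comm_W _ hn _ w.2)
  have hodd : Odd (Nat.card ↥(φ.ker.map ρ)) := by
    let TN : Sylow 2 ↥N := T.subtype hTN
    rw [← Nat.not_even_iff_odd, even_iff_two_dvd]
    intro h
    haveI : Finite ↥(φ.ker.map ρ) := Finite.of_surjective _ (ρ.subgroupMap_surjective φ.ker)
    obtain ⟨x, hx⟩ := exists_prime_orderOf_dvd_card' 2 h
    obtain ⟨k, hk, hkx⟩ := x.2
    have hord : orderOf (ρ k) = 2 := by rw [hkx, Subgroup.orderOf_coe, hx]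
    obtain ⟨m, hm, hm'⟩ : ∃ m, Odd m ∧ ∃ e, orderOf k = 2 ^ e * m := by
      obtain ⟨e, m, hm, he⟩ := Nat.exists_eq_pow_mul_and_not_dvd (orderOf_pos k).ne' 2 (by norm_num)
      exact ⟨m, Nat.not_even_iff_odd.1 fun h => hm (even_iff_two_dvd.1 h), e, he⟩
    obtain ⟨e, he⟩ := hm'
    -- the 2-part lies in a conjugate of `W`
    have hk2 : IsPGroup 2 ↥(zpowers (k ^ m)) := IsPGroup.of_card (n := e) (by
      rw [Nat.card_zpowers, orderOf_pow, he, Nat.gcd_eq_right (Dvd.intro_left _ rfl),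
        Nat.mul_div_cancel _ hm.pos])
    obtain ⟨Q, hQ⟩ := hk2.exists_le_sylow
    obtain ⟨g, hg⟩ := MulAction.exists_smul_eq ↥N Q TN
    have hmem : g * k ^ m * g⁻¹ ∈ (TN : Subgroup ↥N) := by
      rw [← hg, Sylow.coe_subgroup_smul]
      exact ⟨k ^ m, hQ (mem_zpowers _), rfl⟩
    have hW : ((g * k ^ m * g⁻¹ : ↥N) : G) ∈ W := by
      rw [← S.centT]
      refine ⟨hmem, (hφker _).1 ((MonoidHom.normal_ker φ).conj_mem _ (pow_mem hk m) g)⟩
    have h1 := hWρ _ hW
    rw [map_mul, map_mul, map_inv, mul_inv_eq_one, mul_eq_left, map_pow, ← orderOf_dvd_iff_pow_eq_one,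
      hord] at h1
    exact (Nat.not_even_iff_odd.2 hm) (even_iff_two_dvd.2 h1)
  obtain ⟨w₀, hw₀, hw₀D, hw₀T, hw₀u⟩ := S.fixed
  have key := ker_acts_trivially ρ φ T' (fun v => by
      obtain ⟨w, rfl⟩ := hsurj v
      show cls (w * w) = cls 1
      rw [eq_comm, hcls]
      simpa using S.sq_W w w.2)
    (by
      refine le_of_eq ?_
      rw [Nat.card_congr (Additive.toMul (α := ↥W ⧸ D.subgroupOf W))]
      have h := Subgroup.card_eq_card_quotient_mul_card_subgroup (D.subgroupOf W)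
      rw [Nat.card_congr (Subgroup.subgroupOfEquivOfLe S.D_le).toEquiv, S.card_W, S.card_D] at h
      omega)
    hφ hcard hnc hodd hT' (cls ⟨w₀, hw₀⟩)
    (fun h => hw₀D (by
      have h' := (hcls 1 ⟨w₀, hw₀⟩).1 (hcls0.trans h.symm)
      simpa using h'))
    (fun t ht => (hfix t _).2 (hw₀T _ ht))
    (fun v hv => by
      obtain ⟨w, rfl⟩ := hsurj v
      rcases hw₀u w w.2 (fun t ht => (hfix ⟨t, hTN ht⟩ w).1 (hv _ ht)) with h | h
      · exact Or.inl (((hcls 1 w).2 (by simpa using h)).symm.trans hcls0)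
      · exact Or.inr ((hcls ⟨w₀, hw₀⟩ w).2 h).symm)
  intro c hc w hw
  have h := key ⟨c, hc.1⟩ ((hφker _).2 hc.2)
  refine (hfix ⟨c, hc.1⟩ ⟨w, hw⟩).1 ?_
  rw [h]
  rfl

end CfsgLib.RudvalisSylow
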