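import Cfsg.Agent.Lib.RudvalisSylow.Defs

/-!
Weak closure of `W` and the transfer to the normalizer of `W`.
-/

set_option autoImplicit false
set_option linter.style.haveILetI false
set_option linter.unusedSectionVars false

namespace CfsgLib.RudvalisSylow

section Cocycle

variable {P : Type*} [Group P] [Finite P] {A : Type*} [CommGroup A]

/-- A transfer cocycle on a coset space. -/
def IsCoc {R : Subgroup P} (f : P → P ⧸ R → A) : Prop :=
  ∀ x y q, f (x * y) q = f x q * f y (x⁻¹ • q)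

omit [Finite P] in
theorem smul_coe_one {R : Subgroup P} (h : P) : h • ((1 : P) : P ⧸ R) = (h : P ⧸ R) := by
  rw [MulAction.Quotient.smul_coe, smul_eq_mul, mul_one]

/-- A cocycle trivial on the point stabiliser has trivial total. -/
theorem prod_eq_one_of_stab {R : Subgroup P} [Fintype (P ⧸ R)] (hA : ∀ a : A, a * a = 1)
    {f : P → P ⧸ R → A} (hf : IsCoc f) (h0 : ∀ h ∈ R, f h ((1 : P) : P ⧸ R) = 1) (x : P) :
    ∏ q, f x q = 1 := by
  have key : ∀ q, f x q = f q.out q * f (x⁻¹ • q).out (x⁻¹ • q) := by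
    intro q
    set t := q.out with ht
    set t' := (x⁻¹ • q).out with ht'
    have hqt : (t : P ⧸ R) = q := QuotientGroup.out_eq' q
    have hqt' : (t' : P ⧸ R) = x⁻¹ • q := QuotientGroup.out_eq' _
    have hh : t⁻¹ * (x * t') ∈ R := by
      rw [← QuotientGroup.eq, hqt, ← smul_eq_mul, ← MulAction.Quotient.smul_coe, hqt', smul_inv_smul]
    have e1 : f (x * t') q = f x q * f t' (x⁻¹ • q) := hf x t' q
    have e2 : f (x * t') q = f t q := by
      have h1 := hf t (t⁻¹ * (x * t')) q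
      rw [mul_inv_cancel_left, show t⁻¹ • q = ((1 : P) : P ⧸ R) by
        rw [← hqt, MulAction.Quotient.smul_coe, smul_eq_mul, inv_mul_cancel], h0 _ hh, mul_one] at h1
      exact h1
    rw [← e2, e1, mul_assoc, hA, mul_one]
  rw [Finset.prod_congr rfl fun q _ => key q, Finset.prod_mul_distrib,
    show ∏ q : P ⧸ R, f (x⁻¹ • q).out (x⁻¹ • q) = ∏ q : P ⧸ R, f q.out q from
      Fintype.prod_equiv (MulAction.toPerm x⁻¹) _ _ fun q => rfl]
  exact hA _

/-- One step up by an element squaring into `R` and normalising it. -/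
theorem exists_double {R : Subgroup P} [Fintype (P ⧸ R)] {f : P → P ⧸ R → A} (hf : IsCoc f) {u : P}
    (hu : u ∉ R) (hu2 : u * u ∈ R) (hn : ∀ h ∈ R, u⁻¹ * h * u ∈ R) :
    ∃ (K : Subgroup P) (_ : Fintype (P ⧸ K)) (g : P → P ⧸ K → A),
      (∀ h, h ∈ K ↔ h ∈ R ∨ u⁻¹ * h ∈ R) ∧ IsCoc g ∧ (∀ x, ∏ Q, g x Q = ∏ q, f x q) ∧
      (∀ h ∈ R, g h ((1 : P) : P ⧸ K) =
        f h ((1 : P) : P ⧸ R) * f (u⁻¹ * h * u) ((1 : P) : P ⧸ R)) ∧
      g u ((1 : P) : P ⧸ K) = f (u * u) ((1 : P) : P ⧸ R) := by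
  classical
  have hui : ∀ h ∈ R, u * h * u⁻¹ ∈ R := by
    intro h hh
    rw [show u * h * u⁻¹ = (u * u) * (u⁻¹ * h * u) * (u * u)⁻¹ by group]
    exact R.mul_mem (R.mul_mem hu2 (hn h hh)) (R.inv_mem hu2)
  let K : Subgroup P :=
    { carrier := {h | h ∈ R ∨ u⁻¹ * h ∈ R}
      one_mem' := Or.inl R.one_mem
      mul_mem' := by
        rintro a b (ha | ha) (hb | hb)
        · exact Or.inl (R.mul_mem ha hb)
        · right
          rw [show u⁻¹ * (a * b) = (u⁻¹ * a * u) * (u⁻¹ * b) by group]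
          exact R.mul_mem (hn a ha) hb
        · right
          rw [← mul_assoc]; exact R.mul_mem ha hb
        · left
          rw [show a * b = (u * (u⁻¹ * a) * u⁻¹) * (u * u) * (u⁻¹ * b) by group]
          exact R.mul_mem (R.mul_mem (hui _ ha) hu2) hb
      inv_mem' := by
        rintro a (ha | ha)
        · exact Or.inl (R.inv_mem ha)
        · right
          rw [show u⁻¹ * a⁻¹ = u⁻¹ * (u⁻¹ * a)⁻¹ * u * (u * u)⁻¹ by group]
          exact R.mul_mem (hn _ (R.inv_mem ha)) (R.inv_mem hu2) }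
  have hK : ∀ h, h ∈ K ↔ h ∈ R ∨ u⁻¹ * h ∈ R := fun h => Iff.rfl
  have hRK : R ≤ K := fun h hh => Or.inl hh
  let π : P ⧸ R → P ⧸ K := Subgroup.quotientMapOfLE hRK
  have hπs : ∀ (x : P) (q : P ⧸ R), π (x • q) = x • π q := fun x q => by
    induction q using QuotientGroup.induction_on with
    | H z => rfl
  letI := Fintype.ofFinite (P ⧸ K)
  let g : P → P ⧸ K → A := fun x Q => ∏ q ∈ Finset.univ.filter fun q => π q = Q, f x q
  have hfib : ∀ x : P, g x ((1 : P) : P ⧸ K) =
      f x ((1 : P) : P ⧸ R) * f x ((u : P) : P ⧸ R) := by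
    intro x
    have hne : ((1 : P) : P ⧸ R) ≠ ((u : P) : P ⧸ R) := fun e => hu (by
      simpa using (QuotientGroup.eq.1 e))
    show ∏ q ∈ Finset.univ.filter fun q => π q = ((1 : P) : P ⧸ K), f x q = _
    rw [← Finset.prod_pair (f := f x) hne]
    refine Finset.prod_congr ?_ fun q _ => rfl
    ext q
    induction q using QuotientGroup.induction_on with
    | H z =>
      simp only [Finset.mem_filter, Finset.mem_univ, true_and, Finset.mem_insert, Finset.mem_singleton]
      show ((z : P ⧸ K) = ((1 : P) : P ⧸ K)) ↔ _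
      rw [QuotientGroup.eq, QuotientGroup.eq, QuotientGroup.eq, mul_one, inv_mem_iff, hK,
        inv_mem_iff]
      constructor
      · rintro (h | h)
        · exact Or.inl h
        · right
          rw [show z⁻¹ * u = (u⁻¹ * z)⁻¹ by group]
          exact R.inv_mem h
      · rintro (h | h)
        · exact Or.inl h
        · right
          rw [show u⁻¹ * z = (z⁻¹ * u)⁻¹ by group]
          exact R.inv_mem h
  refine ⟨K, inferInstance, g, hK, ?_, fun x => Finset.prod_fiberwise _ π _, ?_, ?_⟩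
  · intro x y Q
    show ∏ q ∈ Finset.univ.filter fun q => π q = Q, f (x * y) q = _
    rw [Finset.prod_congr rfl fun q _ => hf x y q, Finset.prod_mul_distrib]
    congr 1
    refine Finset.prod_nbij' (fun q => x⁻¹ • q) (fun q => x • q) ?_ ?_ ?_ ?_ fun q _ => rfl
    · intro q hq
      simp only [Finset.coe_filter, Finset.mem_univ, true_and, Set.mem_setOf_eq,
        Finset.mem_filter] at hq ⊢
      rw [hπs, hq]
    · intro q hq
      simp only [Finset.coe_filter, Finset.mem_univ, true_and, Set.mem_setOf_eq,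
        Finset.mem_filter] at hq ⊢
      rw [hπs, hq, smul_inv_smul]
    · intro q _; exact smul_inv_smul x q
    · intro q _; exact inv_smul_smul x q
  · intro h hh
    rw [hfib]
    congr 1
    have h1 := hf h u (u : P ⧸ R)
    have h2 := hf u (u⁻¹ * h * u) (u : P ⧸ R)
    have e1 : h⁻¹ • (u : P ⧸ R) = (u : P ⧸ R) := by
      rw [MulAction.Quotient.smul_coe, smul_eq_mul, QuotientGroup.eq,
        show (h⁻¹ * u)⁻¹ * u = u⁻¹ * h * u by group]
      exact hn h hh
    have e2 : u⁻¹ • (u : P ⧸ R) = ((1 : P) : P ⧸ R) := by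
      rw [MulAction.Quotient.smul_coe, smul_eq_mul, inv_mul_cancel]
    rw [e1] at h1
    rw [e2, show u * (u⁻¹ * h * u) = h * u by group, h1, mul_comm] at h2
    exact mul_left_cancel h2
  · rw [hfib, hf u u ((1 : P) : P ⧸ R)]
    congr 1
    congr 1
    rw [MulAction.Quotient.smul_coe, smul_eq_mul, mul_one, QuotientGroup.eq,
      show u⁻¹ * u⁻¹ = (u * u)⁻¹ by group]
    exact R.inv_mem hu2

/-- The restriction to the point stabiliser is a homomorphism. -/
theorem IsCoc.stab_mul {R : Subgroup P} {f : P → P ⧸ R → A} (hf : IsCoc f) {a : P} (ha : a ∈ R) (b : P) :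
    f (a * b) ((1 : P) : P ⧸ R) = f a ((1 : P) : P ⧸ R) * f b ((1 : P) : P ⧸ R) := by
  rw [hf, MulAction.Quotient.smul_coe, smul_eq_mul, mul_one,
    show ((a⁻¹ : P) : P ⧸ R) = ((1 : P) : P ⧸ R) from QuotientGroup.eq.2 (by simpa using ha)]

theorem IsCoc.stab_one {R : Subgroup P} {f : P → P ⧸ R → A} (hf : IsCoc f) :
    f 1 ((1 : P) : P ⧸ R) = 1 := by
  have h := hf.stab_mul R.one_mem (1 : P)
  rw [one_mul] at h
  exact mul_eq_left.1 h.symm

/-- An element outside `R` of `E` normalising `R`, in a nilpotent group. -/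
theorem exists_normalizing [Group.IsNilpotent P] (R E : Subgroup P) [E.Normal] (hE : ¬ E ≤ R) :
    ∃ u ∈ E, u ∉ R ∧ (∀ h ∈ R, u⁻¹ * h * u ∈ R) ∧ ∀ h ∈ R, h⁻¹ * (u⁻¹ * h * u) ∈ E := by
  have hlt : R.subgroupOf (R ⊔ E) < Subgroup.normalizer (R.subgroupOf (R ⊔ E) : Set ↥(R ⊔ E)) := by
    refine Group.normalizerCondition_of_isNilpotent _ (lt_top_iff_ne_top.2 fun e => hE ?_)
    exact le_sup_right.trans (Subgroup.subgroupOf_eq_top.1 e)
  obtain ⟨v, hvn, hvR⟩ := SetLike.exists_of_lt hlt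
  obtain ⟨r, hr, u, hu, hru⟩ := Subgroup.mem_sup_of_normal_right.1 v.2
  have hconj : ∀ h ∈ R, (v : P)⁻¹ * h * v ∈ R := by
    intro h hh
    have := (Subgroup.mem_normalizer_iff''.1 hvn ⟨h, Subgroup.mem_sup_left hh⟩).1 hh
    simpa [Subgroup.mem_subgroupOf] using this
  refine ⟨u, hu, fun huR => hvR ?_, fun h hh => ?_, fun h hh => ?_⟩
  · rw [Subgroup.mem_subgroupOf, ← hru]
    exact R.mul_mem hr huR
  · have h2 := hconj (r * h * r⁻¹) (R.mul_mem (R.mul_mem hr hh) (R.inv_mem hr))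
    rw [← hru] at h2
    rw [show u⁻¹ * h * u = (r * u)⁻¹ * (r * h * r⁻¹) * (r * u) by group]
    exact h2
  · rw [show h⁻¹ * (u⁻¹ * h * u) = (h⁻¹ * u⁻¹ * h) * u by group]
    exact E.mul_mem (by simpa using (inferInstance : E.Normal).conj_mem u⁻¹ (E.inv_mem hu) h⁻¹) hu

end Cocycle

section Tower

variable {P : Type*} [Group P] [Finite P] [Group.IsNilpotent P] {A : Type*} [CommGroup A]

/-- The hypotheses on the pair `D ≤ W` inside `P`. -/
structure Pair (W D : Subgroup P) : Prop where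
  normal_W : W.Normal
  normal_D : D.Normal
  D_le : D ≤ W
  sq_D : ∀ d ∈ D, d * d = 1
  central : ∀ d ∈ D, ∀ w ∈ W, w * d = d * w
  sq_W : ∀ w ∈ W, w * w ∈ D
  comm_W : ∀ v ∈ W, ∀ w ∈ W, v * w * v⁻¹ * w⁻¹ ∈ D
  card_W : Nat.card ↥W = 2 ^ 11
  small : ∀ U : Subgroup P, U ≤ W → 2 ^ 7 ≤ Nat.card ↥U → D ≤ U

variable {W D : Subgroup P} (H : Pair W D) (hA : ∀ a : A, a * a = 1)
include H hA

/-- One step of the tower. -/
theorem exists_step {R : Subgroup P} [Fintype (P ⧸ R)] {f : P → P ⧸ R → A} (hf : IsCoc f)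
    (hWR : ¬ W ≤ R) :
    ∃ (K : Subgroup P) (_ : Fintype (P ⧸ K)) (g : P → P ⧸ K → A),
      R ≤ K ∧ IsCoc g ∧ (∀ x, ∏ Q, g x Q = ∏ q, f x q) ∧
      Nat.card ↥(W ⊓ K) ≤ 2 * Nat.card ↥(W ⊓ R) ∧
      (D ≤ R → ∀ h ∈ D, g h ((1 : P) : P ⧸ K) = 1) ∧
      (((∀ d ∈ D, d ∈ R → f d ((1 : P) : P ⧸ R) = 1) ∧ D ≤ R ∨ ¬ D ≤ R) →
        ∀ h ∈ W ⊓ K, g h ((1 : P) : P ⧸ K) = 1) ∧
      ((∀ h ∈ W ⊓ R, f h ((1 : P) : P ⧸ R) = 1) → ∀ h ∈ K, g h ((1 : P) : P ⧸ K) = 1) := by
  classical
  haveI := H.normal_W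
  haveI := H.normal_D
  -- the element
  obtain ⟨u, huW, huR, hn, hcW, hu2, hB⟩ : ∃ u ∈ W, u ∉ R ∧ (∀ h ∈ R, u⁻¹ * h * u ∈ R) ∧
      (∀ h ∈ R, h⁻¹ * (u⁻¹ * h * u) ∈ W) ∧ u * u ∈ R ∧ (¬ D ≤ R → u ∈ D) := by
    by_cases hD : D ≤ R
    · obtain ⟨u, hu, huR, hn, hc⟩ := exists_normalizing R W hWR
      exact ⟨u, hu, huR, hn, hc, hD (H.sq_W u hu), fun h => absurd hD h⟩
    · obtain ⟨u, hu, huR, hn, hc⟩ := exists_normalizing R D hD
      exact ⟨u, H.D_le hu, huR, hn, fun h hh => H.D_le (hc h hh), by rw [H.sq_D u hu]; exact R.one_mem,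
        fun _ => hu⟩
  obtain ⟨K, hfin, g, hK, hg, htot, hgR, hgu⟩ := exists_double hf huR hu2 hn
  have hRK : R ≤ K := fun h hh => (hK h).2 (Or.inl hh)
  -- values on `R`
  have hval : ∀ h ∈ R, g h ((1 : P) : P ⧸ K) = f (h⁻¹ * (u⁻¹ * h * u)) ((1 : P) : P ⧸ R) := by
    intro h hh
    have h1 := hf.stab_mul hh (h⁻¹ * (u⁻¹ * h * u))
    rw [mul_inv_cancel_left] at h1
    rw [hgR h hh, h1, ← mul_assoc, hA, one_mul]
  have hcomm : ∀ h ∈ W, h⁻¹ * (u⁻¹ * h * u) ∈ D := fun h hh => by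
    rw [show h⁻¹ * (u⁻¹ * h * u) = h⁻¹ * u⁻¹ * (h⁻¹)⁻¹ * (u⁻¹)⁻¹ by group]
    exact H.comm_W _ (W.inv_mem hh) _ (W.inv_mem huW)
  have hsplit : ∀ h ∈ K, h ∈ R ∨ ∃ a ∈ R, h = u * a := fun h hh =>
    ((hK h).1 hh).imp id fun h2 => ⟨u⁻¹ * h, h2, by rw [mul_inv_cancel_left]⟩
  have huK : u ∈ K := (hK u).2 (Or.inr (by rw [inv_mul_cancel]; exact R.one_mem))
  refine ⟨K, hfin, g, hRK, hg, htot, ?_, ?_, ?_, ?_⟩
  · let φ : ↥(W ⊓ K) → Bool × ↥(W ⊓ R) := fun h =>
      if hh : (h : P) ∈ R then (true, ⟨h, h.2.1, hh⟩)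
      else (false, ⟨u⁻¹ * h, W.mul_mem (W.inv_mem huW) h.2.1,
        ((hK h).1 h.2.2).resolve_left hh⟩)
    have hφ : Function.Injective φ := by
      intro a b e
      simp only [φ] at e
      split_ifs at e with h1 h2
      · exact Subtype.ext (congrArg (fun z => ((Prod.snd z : ↥(W ⊓ R)) : P)) e)
      · cases congrArg Prod.fst e
      · cases congrArg Prod.fst e
      · exact Subtype.ext (mul_left_cancel (congrArg (fun z => ((Prod.snd z : ↥(W ⊓ R)) : P)) e))
    refine (Nat.card_le_card_of_injective φ hφ).trans (le_of_eq ?_)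
    rw [Nat.card_prod]; simp
  · intro hD h hh
    rw [hval h (hD hh), show h⁻¹ * (u⁻¹ * h * u) = 1 by
      rw [mul_assoc u⁻¹, ← H.central h hh u huW]; group]
    exact hf.stab_one
  · rintro hcase h ⟨hhW, hhK⟩
    have hR' : ∀ a ∈ W, a ∈ R → g a ((1 : P) : P ⧸ K) = 1 := by
      intro a ha haR
      rw [hval a haR]
      rcases hcase with ⟨h1, -⟩ | h2
      · exact h1 _ (hcomm a ha) (R.mul_mem (R.inv_mem haR) (hn a haR))
      · rw [show a⁻¹ * (u⁻¹ * a * u) = 1 by
          rw [mul_assoc u⁻¹, H.central u (hB h2) a ha]; group]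
        exact hf.stab_one
    have hgu1 : g u ((1 : P) : P ⧸ K) = 1 := by
      rw [hgu]
      rcases hcase with ⟨h1, -⟩ | h2
      · exact h1 _ (H.sq_W u huW) hu2
      · rw [H.sq_D u (hB h2)]; exact hf.stab_one
    rcases hsplit h hhK with hh | ⟨a, ha, rfl⟩
    · exact hR' h hhW hh
    · have haW : a ∈ W := by simpa using W.mul_mem (W.inv_mem huW) hhW
      rw [hg.stab_mul huK, hgu1, one_mul, hR' a haW ha]
  · intro hkill h hh
    have hR' : ∀ a ∈ R, g a ((1 : P) : P ⧸ K) = 1 := fun a ha => by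
      rw [hval a ha]
      exact hkill _ ⟨hcW a ha, R.mul_mem (R.inv_mem ha) (hn a ha)⟩
    rcases hsplit h hh with hh | ⟨a, ha, rfl⟩
    · exact hR' h hh
    · rw [hg.stab_mul huK, hgu, hkill _ ⟨W.mul_mem huW huW, hu2⟩, one_mul, hR' a ha]

theorem prod_eq_one_of_kill {R : Subgroup P} [Fintype (P ⧸ R)] {f : P → P ⧸ R → A} (hf : IsCoc f)
    (hWR : ¬ W ≤ R) (hkill : ∀ h ∈ W ⊓ R, f h ((1 : P) : P ⧸ R) = 1) (x : P) : ∏ q, f x q = 1 := by
  obtain ⟨K, hfin, g, -, hg, htot, -, -, -, hfinish⟩ := exists_step H hA hf hWR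
  rw [← htot]
  exact prod_eq_one_of_stab hA hg (hfinish hkill) x

omit hA in
theorem not_le_of_card {R : Subgroup P} (h : Nat.card ↥(W ⊓ R) < 2 ^ 11) : ¬ W ≤ R := fun e => by
  rw [inf_eq_left.2 e, H.card_W] at h
  exact lt_irrefl _ h

theorem prod_eq_one_of_killD {R : Subgroup P} [Fintype (P ⧸ R)] {f : P → P ⧸ R → A} (hf : IsCoc f)
    (hn : Nat.card ↥(W ⊓ R) < 2 ^ 10) (hD : D ≤ R) (hkill : ∀ d ∈ D, f d ((1 : P) : P ⧸ R) = 1) (x : P) :
    ∏ q, f x q = 1 := by
  obtain ⟨K, hfin, g, -, hg, htot, hc, -, hk, -⟩ :=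
    exists_step H hA hf (not_le_of_card H (by omega))
  rw [← htot]
  exact prod_eq_one_of_kill H hA hg (not_le_of_card H (by omega))
    (hk (Or.inl ⟨fun d hd _ => hkill d hd, hD⟩)) x

/-- The total of a cocycle on an orbit not fixed by `W` is trivial. -/
theorem prod_eq_one_of_not_le (h2 : Nat.card A = 2) {R : Subgroup P} [Fintype (P ⧸ R)]
    {f : P → P ⧸ R → A} (hf : IsCoc f) (hWR : ¬ W ≤ R)
    (hbig : Nat.card ↥(W ⊓ R) = 2 ^ 10 → ∀ h ∈ W ⊓ R, f h ((1 : P) : P ⧸ R) = 1) (x : P) :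
    ∏ q, f x q = 1 := by
  classical
  obtain ⟨i, hi, hi'⟩ := (Nat.dvd_prime_pow Nat.prime_two).1
    (H.card_W ▸ Subgroup.card_dvd_of_le (inf_le_left : W ⊓ R ≤ W))
  have hi11 : i ≠ 11 := fun e => hWR (inf_eq_left.1 (Subgroup.eq_of_le_of_card_ge inf_le_left
    (by rw [hi', e, H.card_W])))
  by_cases h10 : i = 10
  · exact prod_eq_one_of_kill H hA hf hWR (hbig (by rw [hi', h10])) x
  have hlt : Nat.card ↥(W ⊓ R) < 2 ^ 10 := by
    rw [hi']; exact Nat.pow_lt_pow_right one_lt_two (by omega)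
  by_cases hD : D ≤ R
  swap
  · -- `D` is not in `R`
    obtain ⟨K, hfin, g, -, hg, htot, hc, -, hk, -⟩ := exists_step H hA hf hWR
    rw [← htot]
    exact prod_eq_one_of_kill H hA hg (not_le_of_card H (by omega)) (hk (Or.inr hD)) x
  by_cases hkill : ∀ d ∈ D, f d ((1 : P) : P ⧸ R) = 1
  · exact prod_eq_one_of_killD H hA hf hlt hD hkill x
  have hsmall : Nat.card ↥(W ⊓ R) < 2 ^ 8 := by
    by_contra hcon
    push Not at hcon
    refine hkill fun d hd => ?_
    let χ : ↥(W ⊓ R) →* A :=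
      { toFun := fun h => f h ((1 : P) : P ⧸ R)
        map_one' := hf.stab_one
        map_mul' := fun a b => hf.stab_mul a.2.2 b }
    have h1 := χ.ker.card_mul_index
    rw [Subgroup.index_ker] at h1
    haveI : Finite A := Nat.finite_of_card_ne_zero (by omega)
    have h3 : Nat.card χ.range ≤ 2 := h2 ▸ Subgroup.card_le_card_group _
    have h4 : 2 ^ 7 ≤ Nat.card ↥(χ.ker.map (W ⊓ R).subtype) := by
      rw [Subgroup.card_map_of_injective (Subgroup.subtype_injective _)]
      nlinarith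
    obtain ⟨k, hk, hkd⟩ :=
      H.small _ ((Subgroup.map_subtype_le _).trans inf_le_left) h4 hd
    rw [← hkd]
    exact MonoidHom.mem_ker.1 hk
  obtain ⟨K, hfin, g, hRK, hg, htot, hc, hgD, -, -⟩ := exists_step H hA hf hWR
  rw [← htot]
  exact prod_eq_one_of_killD H hA hg (by omega) (hD.trans hRK) (hgD hD) x

end Tower

section Main

open Subgroup

variable {G : Type*} [Group G] [Finite G] {T : Sylow 2 G} {W D : Subgroup G}

theorem Setup.mem_normalizer_conj (S : Setup T W D) {n : G} (hn : n ∈ normalizer (W : Set G)) {d : G}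
    (hd : d ∈ D) : n * d * n⁻¹ ∈ D := by
  have h : W.map (MulAut.conj n).toMonoidHom = W := by
    ext w
    rw [Subgroup.mem_map_equiv, MulAut.conj_symm_apply]
    exact (Subgroup.mem_normalizer_iff''.1 hn w).symm
  have h2 : D.map (MulAut.conj n).toMonoidHom = D := by
    rw [← S.comm_eq, Subgroup.map_commutator, h]
  rw [← h2]
  exact Subgroup.mem_map_of_mem _ hd

theorem Setup.le_normalizer (S : Setup T W D) : (T : Subgroup G) ≤ normalizer (W : Set G) := fun t ht =>
  Subgroup.mem_normalizer_iff.2 fun w => ⟨fun hw => S.conj_W t ht w hw, fun hw => by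
    have := S.conj_W t⁻¹ (inv_mem ht) _ hw
    simpa [mul_assoc] using this⟩

/-- Two conjugates sharing a subgroup of order `2^8` share `D`. -/
theorem Setup.conj_D_eq (S : Setup T W D) {g : G} {U : Subgroup G} (hU : U ≤ W)
    (hUg : ∀ u ∈ U, g⁻¹ * u * g ∈ W) (hc : 2 ^ 8 ≤ Nat.card ↥U) :
    D.map (MulAut.conj g).toMonoidHom = D := by
  have hinj : Function.Injective (MulAut.conj g⁻¹).toMonoidHom := (MulAut.conj g⁻¹).injective
  have hsm : ∀ M : Subgroup G, M ≤ U → 2 ^ 7 ≤ Nat.card ↥M →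
      D ≤ M ∧ D.map (MulAut.conj g).toMonoidHom ≤ M := by
    intro M hM hcM
    refine ⟨S.small M (hM.trans hU) hcM, ?_⟩
    have h := S.small (M.map (MulAut.conj g⁻¹).toMonoidHom) (by
      rintro _ ⟨m, hm, rfl⟩
      simpa using hUg m (hM hm)) (by rw [Subgroup.card_map_of_injective hinj]; exact hcM)
    rintro _ ⟨d, hd, rfl⟩
    obtain ⟨m, hm, hmd⟩ := h hd
    rw [← hmd]
    simpa [mul_assoc] using hm
  obtain ⟨hDU, hDgU⟩ := hsm U le_rfl (le_trans (by norm_num) hc)
  refine Subgroup.eq_of_le_of_card_ge ?_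
    (by rw [Subgroup.card_map_of_injective (MulAut.conj g).injective])
  intro d hd
  by_contra hdD
  obtain ⟨M, hKM, hMU, hdM, hcov⟩ := exists_two_avoid
    (K := D ⊓ D.map (MulAut.conj g).toMonoidHom) (inf_le_left.trans hDU) (fun u hu => ⟨S.sq_W u (hU hu),
      ⟨(g⁻¹ * u * g) * (g⁻¹ * u * g), S.sq_W _ (hUg u hu), by simp [mul_assoc]⟩⟩) (hDgU hd)
    (fun h => hdD h.1)
  refine hdM ((hsm M hMU ?_).2 hd)
  have hle : Nat.card ↥U ≤ Nat.card (Bool × ↥M) := by
    classical
    refine Nat.card_le_card_of_injective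
      (fun u => if h : (u : G) ∈ M then (true, ⟨u, h⟩)
        else (false, ⟨d * u, (hcov u u.2).resolve_left h⟩)) ?_
    intro a b e
    simp only at e
    split_ifs at e with h1 h2
    · exact Subtype.ext (congrArg (fun z => ((Prod.snd z : ↥M) : G)) e)
    · cases congrArg Prod.fst e
    · cases congrArg Prod.fst e
    · exact Subtype.ext (mul_left_cancel (congrArg (fun z => ((Prod.snd z : ↥M) : G)) e))
  rw [Nat.card_prod] at hle
  simp at hle
  omega

/-- A subgroup of `T` loses at most a factor eight inside `W`. -/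
theorem Setup.card_le_inf (S : Setup T W D) {X : Subgroup G} (hX : X ≤ (T : Subgroup G)) :
    Nat.card ↥X ≤ 8 * Nat.card ↥(W ⊓ X) := by
  have h1 : (X ⊓ W).relIndex X = W.relIndex X := Subgroup.inf_relIndex_left X W
  have h2 : W.relIndex X ≤ W.relIndex (T : Subgroup G) :=
    Subgroup.relIndex_le_of_le_right hX (fun h => by
      have := Subgroup.relIndex_mul_index S.le
      exact Subgroup.index_ne_zero_of_finite (H := W) (by rw [← this, h, zero_mul]))
  have h3 : W.relIndex (T : Subgroup G) = 8 := by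
    have := Subgroup.relIndex_mul_index S.le
    have e1 := W.card_mul_index
    have e2 := (T : Subgroup G).card_mul_index
    rw [S.card_W, ← this] at e1
    rw [S.card_T, ← e1] at e2
    have hpos : 0 < (T : Subgroup G).index := Nat.pos_of_ne_zero Subgroup.index_ne_zero_of_finite
    nlinarith
  have h4 : Nat.card ↥(X ⊓ W) * (X ⊓ W).relIndex X = Nat.card ↥X := by
    rw [← Subgroup.relIndex_bot_left, ← Subgroup.relIndex_bot_left,
      Subgroup.relIndex_mul_relIndex _ _ _ bot_le inf_le_left]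
  rw [inf_comm, ← h4, h1, mul_comm 8]
  exact Nat.mul_le_mul_left _ (h2.trans h3.le)

theorem Setup.weakly_closed (S : Setup T W D) {g : G}
    (h : W.map (MulAut.conj g).toMonoidHom ≤ (T : Subgroup G)) :
    W.map (MulAut.conj g).toMonoidHom = W ∧ D.map (MulAut.conj g).toMonoidHom = D := by
  have hc : Nat.card ↥(W.map (MulAut.conj g).toMonoidHom) = 2 ^ 11 := by
    rw [Subgroup.card_map_of_injective (MulAut.conj g).injective, S.card_W]
  have hcU : 2 ^ 8 ≤ Nat.card ↥(W ⊓ W.map (MulAut.conj g).toMonoidHom) := by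
    have := S.card_le_inf h
    rw [hc] at this
    omega
  have hD := S.conj_D_eq (g := g) (U := W ⊓ W.map (MulAut.conj g).toMonoidHom) inf_le_left (by
    rintro u ⟨-, w, hw, rfl⟩
    simpa [mul_assoc] using hw) hcU
  refine ⟨Subgroup.eq_of_le_of_card_ge ?_ (by rw [hc, S.card_W]), hD⟩
  intro x hx
  rw [← S.centT]
  refine ⟨h hx, Subgroup.mem_centralizer_iff.2 fun d hd => ?_⟩
  obtain ⟨w, hw, rfl⟩ := hx
  obtain ⟨e, he, rfl⟩ : d ∈ D.map (MulAut.conj g).toMonoidHom := by rw [hD]; exact hd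
  rw [← map_mul, ← map_mul, S.central e he w hw]

/-- A `2`-subgroup of the normalizer centralizing `D` lies in `W`. -/
theorem Setup.le_of_centralizes (S : Setup T W D) {X : Subgroup G} (hX : IsPGroup 2 ↥X)
    (hXN : X ≤ normalizer (W : Set G)) (hXD : X ≤ centralizer (D : Set G)) : X ≤ W := by
  haveI : Fact (Nat.Prime 2) := ⟨Nat.prime_two⟩
  obtain ⟨Q, hQ⟩ := (hX.comap_subtype (K := normalizer (W : Set G))).exists_le_sylow
  obtain ⟨n, hn⟩ := MulAction.exists_smul_eq ↥(normalizer (W : Set G)) (T.subtype S.le_normalizer) Q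
  intro x hx
  have hxQ : (⟨x, hXN hx⟩ : ↥(normalizer (W : Set G))) ∈ (Q : Subgroup ↥(normalizer (W : Set G))) :=
    hQ hx
  rw [← hn, Sylow.coe_subgroup_smul, Subgroup.mem_pointwise_smul_iff_inv_smul_mem] at hxQ
  have hxT : (n : G)⁻¹ * x * n ∈ (T : Subgroup G) := by
    simpa [MulAut.smul_def, Subgroup.mem_subgroupOf] using hxQ
  have hxW : (n : G)⁻¹ * x * n ∈ W := by
    refine S.centT.le ⟨hxT, Subgroup.mem_centralizer_iff.2 fun d hd => ?_⟩
    have hd' := S.mem_normalizer_conj n.2 hd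
    have := Subgroup.mem_centralizer_iff.1 (hXD hx) _ hd'
    calc d * ((n : G)⁻¹ * x * n) = (n : G)⁻¹ * (((n : G) * d * (n : G)⁻¹) * x) * n := by group
      _ = (n : G)⁻¹ * (x * ((n : G) * d * (n : G)⁻¹)) * n := by rw [this]
      _ = _ := by group
  have := (Subgroup.mem_normalizer_iff.1 n.2 _).1 hxW
  simpa [mul_assoc] using this

/-- Commutation with a fixed element of a subgroup centralised by `D`. -/
theorem card_le_centralizer_inf {X K : Subgroup G} {d : G}
    (hK : ∀ x ∈ X, x * d * x⁻¹ * d⁻¹ ∈ K) (hKc : ∀ x ∈ X, ∀ k ∈ K, x * k = k * x)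
    (hKK : ∀ a ∈ K, ∀ b ∈ K, a * b = b * a) :
    Nat.card ↥X ≤ Nat.card ↥K * Nat.card ↥(X ⊓ centralizer {d}) := by
  let χ : ↥X →* ↥K :=
    { toFun := fun x => ⟨(x : G) * d * (x : G)⁻¹ * d⁻¹, hK x x.2⟩
      map_one' := Subtype.ext (by simp)
      map_mul' := fun a b => Subtype.ext (by
        show ((a : G) * b) * d * ((a : G) * b)⁻¹ * d⁻¹ = _
        calc ((a : G) * b) * d * ((a : G) * b)⁻¹ * d⁻¹
            = ((a : G) * ((b : G) * d * (b : G)⁻¹ * d⁻¹) * (a : G)⁻¹) *
              ((a : G) * d * (a : G)⁻¹ * d⁻¹) := by group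
          _ = ((b : G) * d * (b : G)⁻¹ * d⁻¹) * ((a : G) * d * (a : G)⁻¹ * d⁻¹) := by
            rw [hKc a a.2 _ (hK b b.2), mul_inv_cancel_right]
          _ = _ := hKK _ (hK b b.2) _ (hK a a.2)) }
  have h1 := χ.ker.card_mul_index
  rw [Subgroup.index_ker] at h1
  rw [← h1, mul_comm]
  refine Nat.mul_le_mul (Subgroup.card_le_card_group _) ?_
  refine Nat.card_le_card_of_injective (fun x => ⟨(x.1 : G), x.1.2,
    Subgroup.mem_centralizer_singleton_iff.2 ?_⟩) fun a b e => Subtype.ext (Subtype.ext ?_)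
  · exact mul_inv_eq_iff_eq_mul.1 (mul_inv_eq_one.1 (congrArg Subtype.val (MonoidHom.mem_ker.1 x.2)))
  · exact (Subtype.mk.injEq _ _ _ _).mp e

/-- A subgroup of index two in `W` mapped into the normalizer centralizes the image of `D`. -/
theorem Setup.centralizes_of_index_two (S : Setup T W D) {g : G} {W0 : Subgroup G} (hW0 : W0 ≤ W)
    (hc : 2 ^ 10 ≤ Nat.card ↥W0) (hN : ∀ w ∈ W0, g⁻¹ * w * g ∈ normalizer (W : Set G)) :
    ∀ w ∈ W0, g⁻¹ * w * g ∈ centralizer (D : Set G) := by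
  classical
  haveI : Fact (Nat.Prime 2) := ⟨Nat.prime_two⟩
  set Dg := D.map (MulAut.conj g).toMonoidHom with hDg
  have hmemDg : ∀ {d}, d ∈ Dg ↔ g⁻¹ * d * g ∈ D := fun {d} => by
    rw [hDg, Subgroup.mem_map_equiv, MulAut.conj_symm_apply]
  suffices hDD : Dg = D by
    intro w hw
    refine Subgroup.mem_centralizer_iff.2 fun d hd => ?_
    have h1 : g * d * g⁻¹ ∈ D := hDD ▸ hmemDg.2 (by simpa [mul_assoc] using hd)
    have h2 := S.central _ h1 w (hW0 hw)
    calc d * (g⁻¹ * w * g) = g⁻¹ * ((g * d * g⁻¹) * w) * g := by group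
      _ = g⁻¹ * (w * (g * d * g⁻¹)) * g := by rw [h2]
      _ = _ := by group
  have h2W : IsPGroup 2 ↥W := IsPGroup.of_card S.card_W
  -- elements of `W0` centralizing `Dg` land in `W`
  have hback : ∀ U : Subgroup G, U ≤ W0 → (∀ u ∈ U, ∀ d ∈ Dg, u * d = d * u) →
      ∀ u ∈ U, g⁻¹ * u * g ∈ W := by
    intro U hU hUc u hu
    refine S.le_of_centralizes (X := U.map (MulAut.conj g⁻¹).toMonoidHom)
      ((h2W.to_le (hU.trans hW0)).map _) ?_ ?_ ⟨u, hu, by simp⟩
    · rintro _ ⟨v, hv, rfl⟩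
      simpa using hN v (hU hv)
    · rintro _ ⟨v, hv, rfl⟩
      refine Subgroup.mem_centralizer_iff.2 fun d hd => ?_
      have := hUc v hv (g * d * g⁻¹) (hmemDg.2 (by simpa [mul_assoc] using hd))
      simp only [MulEquiv.coe_toMonoidHom, MulAut.conj_apply, inv_inv]
      calc d * (g⁻¹ * v * g) = g⁻¹ * ((g * d * g⁻¹) * v) * g := by group
        _ = g⁻¹ * (v * (g * d * g⁻¹)) * g := by rw [this]
        _ = _ := by group
  -- `Dg` lies in `W`
  have hDgW : Dg ≤ W := by
    obtain ⟨Q, hQ⟩ :=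
      (((h2W.to_le hW0).map (MulAut.conj g⁻¹).toMonoidHom).comap_subtype
        (K := normalizer (W : Set G))).exists_le_sylow
    obtain ⟨n, hn⟩ := MulAction.exists_smul_eq ↥(normalizer (W : Set G)) (T.subtype S.le_normalizer) Q
    let X := W0.map (MulAut.conj ((n : G)⁻¹ * g⁻¹)).toMonoidHom
    have hXT : X ≤ (T : Subgroup G) := by
      rintro _ ⟨w, hw, rfl⟩
      have hxQ : (⟨g⁻¹ * w * g, hN w hw⟩ : ↥(normalizer (W : Set G))) ∈
          (Q : Subgroup ↥(normalizer (W : Set G))) := hQ ⟨w, hw, by simp⟩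
      rw [← hn, Sylow.coe_subgroup_smul, Subgroup.mem_pointwise_smul_iff_inv_smul_mem] at hxQ
      simpa [MulAut.smul_def, Subgroup.mem_subgroupOf, mul_assoc] using hxQ
    have h7 : 2 ^ 7 ≤ Nat.card ↥(W ⊓ X) := by
      have := S.card_le_inf hXT
      rw [Subgroup.card_map_of_injective (MulAut.conj _).injective] at this
      omega
    intro d hd
    have hd' : (n : G)⁻¹ * (g⁻¹ * d * g) * n ∈ D := by
      simpa using S.mem_normalizer_conj ((normalizer (W : Set G)).inv_mem n.2) (hmemDg.1 hd)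
    obtain ⟨w, hw, he⟩ := (S.small _ inf_le_left h7 hd').2
    refine hW0 ?_
    suffices d = w by rwa [this]
    simp only [MulEquiv.coe_toMonoidHom, MulAut.conj_apply, mul_inv_rev, inv_inv] at he
    calc d = g * n * ((n : G)⁻¹ * (g⁻¹ * d * g) * n) * ((n : G)⁻¹ * g⁻¹) := by group
      _ = g * n * ((n : G)⁻¹ * g⁻¹ * w * (g * n)) * ((n : G)⁻¹ * g⁻¹) := by rw [he]
      _ = w := by group
  set K := D ⊓ Dg with hK
  have hcomm : ∀ x ∈ W0, ∀ d ∈ Dg, x * d * x⁻¹ * d⁻¹ ∈ K := by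
    intro x hx d hd
    refine ⟨S.comm_W x (hW0 hx) d (hDgW hd), ?_⟩
    refine Dg.mul_mem (hmemDg.2 ?_) (Dg.inv_mem hd)
    have := S.mem_normalizer_conj (hN x hx) (hmemDg.1 hd)
    simpa [mul_assoc] using this
  have hKc : ∀ x ∈ W0, ∀ k ∈ K, x * k = k * x := fun x hx k hk => S.central k hk.1 x (hW0 hx)
  have hKK : ∀ a ∈ K, ∀ b ∈ K, a * b = b * a := fun a ha b hb => S.central b hb.1 a (S.D_le ha.1)
  have hcDg : Nat.card ↥Dg = 8 := by
    rw [hDg, Subgroup.card_map_of_injective (MulAut.conj g).injective, S.card_D]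
  obtain ⟨i, hi, hi'⟩ := (Nat.dvd_prime_pow (i := Nat.card ↥K) (m := 3) Nat.prime_two).1
    (by rw [show (2 : ℕ) ^ 3 = Nat.card ↥Dg by rw [hcDg]; norm_num]
        exact Subgroup.card_dvd_of_le inf_le_right)
  by_cases hi3 : i = 3
  · have h1 : K = Dg := Subgroup.eq_of_le_of_card_ge inf_le_right (by rw [hcDg, hi', hi3]; norm_num)
    refine Subgroup.eq_of_le_of_card_ge (h1 ▸ inf_le_left) ?_
    rw [hcDg, S.card_D]
  -- a centralizer in `W0` of index at most four
  obtain ⟨U, hU0, hUc, hUcard⟩ : ∃ U : Subgroup G, U ≤ W0 ∧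
      (∀ u ∈ U, ∀ d ∈ Dg, u * d = d * u) ∧ 2 ^ 8 ≤ Nat.card ↥U := by
    have hgen : ∀ (U : Subgroup G), U ≤ W0 → ∀ (E : Subgroup G), E ≤ Dg →
        (∀ u ∈ U, ∀ e ∈ E, u * e = e * u) → ∀ d ∈ Dg, ∀ u ∈ U ⊓ centralizer {d},
        ∀ e ∈ E ⊔ Subgroup.zpowers d, u * e = e * u := by
      intro U _ E _ hE d _ u hu e he
      have : E ⊔ Subgroup.zpowers d ≤ centralizer ({u} : Set G) := sup_le
        (fun x hx => Subgroup.mem_centralizer_singleton_iff.2 (hE u hu.1 x hx).symm)
        (Subgroup.zpowers_le.2 (Subgroup.mem_centralizer_singleton_iff.2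
          (Subgroup.mem_centralizer_singleton_iff.1 hu.2).symm))
      exact (Subgroup.mem_centralizer_singleton_iff.1 (this he)).symm
    have hgrow : ∀ E : Subgroup G, E ≤ Dg → ∀ d ∈ Dg, d ∉ E →
        2 * Nat.card ↥E ≤ Nat.card ↥(E ⊔ Subgroup.zpowers d) := by
      intro E _ d _ hdE
      have hlt : E < E ⊔ Subgroup.zpowers d := lt_of_le_not_ge le_sup_left fun h =>
        hdE (h (Subgroup.mem_sup_right (Subgroup.mem_zpowers d)))
      obtain ⟨c, hc⟩ := Subgroup.card_dvd_of_le hlt.le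
      have hne : Nat.card ↥(E ⊔ Subgroup.zpowers d) ≠ Nat.card ↥E := fun e =>
        hlt.ne (Subgroup.eq_of_le_of_card_ge hlt.le e.le)
      rw [hc] at hne ⊢
      rcases c with _ | _ | c
      · exact absurd (by simpa using hc) Nat.card_pos.ne'
      · simp at hne
      · rw [mul_comm]; exact Nat.mul_le_mul_left _ (by omega)
    by_cases hall : Dg ≤ K
    · exact ⟨W0, le_rfl, fun u hu d hd => hKc u hu d (hall hd), by omega⟩
    obtain ⟨d, hd, hdK⟩ := SetLike.not_le_iff_exists.1 hall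
    have hU1 := card_le_centralizer_inf (X := W0) (K := K) (d := d) (fun x hx => hcomm x hx d hd) hKc hKK
    have hc1 := hgen W0 le_rfl K inf_le_right hKc d hd
    have hE1 : K ⊔ Subgroup.zpowers d ≤ Dg := sup_le inf_le_right (Subgroup.zpowers_le.2 hd)
    by_cases hall1 : Dg ≤ K ⊔ Subgroup.zpowers d
    · refine ⟨W0 ⊓ centralizer {d}, inf_le_left, fun u hu e he => hc1 u hu e (hall1 he), ?_⟩
      have : Nat.card ↥K ≤ 4 := by
        rw [hi']; exact Nat.pow_le_pow_right two_pos (show i ≤ 2 by omega)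
      nlinarith
    obtain ⟨e, he, heE⟩ := SetLike.not_le_iff_exists.1 hall1
    have g1 := hgrow K inf_le_right d hd hdK
    have g2 := hgrow _ hE1 e he heE
    have hE2 : K ⊔ Subgroup.zpowers d ⊔ Subgroup.zpowers e ≤ Dg :=
      sup_le hE1 (Subgroup.zpowers_le.2 he)
    have h8 := Subgroup.card_le_of_le hE2
    have hU2 := card_le_centralizer_inf (X := W0 ⊓ centralizer {d}) (K := K) (d := e)
      (fun x hx => hcomm x hx.1 e he) (fun x hx => hKc x hx.1) hKK
    have hc2 := hgen _ inf_le_left _ hE1 hc1 e he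
    by_cases hall2 : Dg ≤ K ⊔ Subgroup.zpowers d ⊔ Subgroup.zpowers e
    · refine ⟨W0 ⊓ centralizer {d} ⊓ centralizer {e}, inf_le_left.trans inf_le_left,
        fun u hu f hf => hc2 u hu f (hall2 hf), ?_⟩
      have : Nat.card ↥K ≤ 2 := by omega
      nlinarith
    obtain ⟨f, hf, hfE⟩ := SetLike.not_le_iff_exists.1 hall2
    have g3 := hgrow _ hE2 f hf hfE
    have h8' := Subgroup.card_le_of_le (sup_le hE2 (Subgroup.zpowers_le.2 hf))
    have := Nat.card_pos (α := ↥K)
    have hK1 : Nat.card ↥K = 1 := by omega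
    have hKb : K = ⊥ := Subgroup.eq_bot_of_card_eq _ hK1
    refine ⟨W0, le_rfl, fun u hu d hd => ?_, by omega⟩
    have := hcomm u hu d hd
    rw [hKb, Subgroup.mem_bot] at this
    exact mul_inv_eq_iff_eq_mul.1 (mul_inv_eq_one.1 this)
  exact S.conj_D_eq (hU0.trans hW0) (hback U hU0 hUc) hUcard

theorem mul_self_two : ∀ a : Multiplicative (ZMod 2), a * a = 1 := by decide

theorem Setup.exists_index_two (S : Setup T W D)
    (φ : ↥(normalizer (W : Set G)) →* Multiplicative (ZMod 2)) (hφ : Function.Surjective φ)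
    (hker : ∀ x : ↥(normalizer (W : Set G)), (x : G) ∈ centralizer (D : Set G) → φ x = 1) :
    ∃ H : Subgroup G, H.index = 2 := by
  classical
  haveI : Fact (Nat.Prime 2) := ⟨Nat.prime_two⟩
  have hA := mul_self_two
  have h2 : Nat.card (Multiplicative (ZMod 2)) = 2 := by
    rw [Nat.card_congr Multiplicative.toAdd, Nat.card_zmod]
  have hTN : (T : Subgroup G) ≤ (normalizer (W : Set G)) := S.le_normalizer
  haveI : Group.IsNilpotent ↥(T : Subgroup G) := T.isPGroup'.isNilpotent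
  have H : Pair (W.subgroupOf (T : Subgroup G)) (D.subgroupOf (T : Subgroup G)) :=
    { normal_W := ⟨fun x hx y => S.conj_W y y.2 x hx⟩
      normal_D := ⟨fun x hx y => S.conj_D y y.2 x hx⟩
      D_le := fun x hx => S.D_le hx
      sq_D := fun x hx => Subtype.ext (S.sq_D _ hx)
      central := fun x hx w hw => Subtype.ext (S.central _ hx _ hw)
      sq_W := fun w hw => S.sq_W _ hw
      comm_W := fun v hv w hw => S.comm_W _ hv _ hw
      card_W := by rw [Nat.card_congr (Subgroup.subgroupOfEquivOfLe S.le).toEquiv, S.card_W]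
      small := fun U hU hc x hx => by
        obtain ⟨y, hy, e⟩ := S.small (U.map (T : Subgroup G).subtype)
          (by rintro _ ⟨y, hy, rfl⟩; exact hU hy)
          (by rw [Subgroup.card_map_of_injective (Subgroup.subtype_injective _)]; exact hc) hx
        exact Subtype.ext e ▸ hy }
  -- the cocycle
  let T0 : (normalizer (W : Set G)).LeftTransversal := default
  let s : G ⧸ (normalizer (W : Set G)) → G := fun q => (T0.2.leftQuotientEquiv q : G)
  have hs : ∀ q : G ⧸ (normalizer (W : Set G)), (s q : G ⧸ (normalizer (W : Set G))) = q := fun q => T0.2.leftQuotientEquiv.symm_apply_apply q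
  have hmem : ∀ (x : G) (q : G ⧸ (normalizer (W : Set G))), (s q)⁻¹ * (x * s (x⁻¹ • q)) ∈ (normalizer (W : Set G)) := fun x q => by
    rw [← QuotientGroup.eq, hs, ← smul_eq_mul, ← MulAction.Quotient.smul_coe, hs, smul_inv_smul]
  let F : G → G ⧸ (normalizer (W : Set G)) → Multiplicative (ZMod 2) := fun x q => φ ⟨_, hmem x q⟩
  have hF : ∀ x y q, F (x * y) q = F x q * F y (x⁻¹ • q) := fun x y q => by
    show φ _ = φ _ * φ _
    rw [← map_mul]
    refine congrArg φ (Subtype.ext ?_)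
    show (s q)⁻¹ * (x * y * s ((x * y)⁻¹ • q)) =
      ((s q)⁻¹ * (x * s (x⁻¹ • q))) * ((s (x⁻¹ • q))⁻¹ * (y * s (y⁻¹ • x⁻¹ • q)))
    rw [← mul_smul, ← mul_inv_rev]
    group
  letI := (normalizer (W : Set G)).fintypeQuotientOfFiniteIndex
  have htr : ∀ x, MonoidHom.transfer φ x = ∏ q, F x q := by
    intro x
    rw [MonoidHom.transfer_def φ T0, Subgroup.leftTransversals.diff]
    refine Finset.prod_congr rfl fun q _ => congrArg φ (Subtype.ext ?_)
    show (s q)⁻¹ * ((x • T0).2.leftQuotientEquiv q : G) = (s q)⁻¹ * (x * s (x⁻¹ • q))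
    rw [Subgroup.smul_apply_eq_smul_apply_inv_smul]
    rfl
  set q1 : G ⧸ (normalizer (W : Set G)) := ((1 : G) : G ⧸ (normalizer (W : Set G))) with hq1
  -- on `T` only the trivial coset contributes
  have key : ∀ x : ↥(T : Subgroup G), ∏ q, F (x : G) q = φ ⟨x, hTN x.2⟩ := by
    intro x
    rw [← Finset.prod_fiberwise Finset.univ
      (fun q => (Quotient.mk'' q : MulAction.orbitRel.Quotient ↥(T : Subgroup G) (G ⧸ (normalizer (W : Set G))))) (F x)]
    have hfix : ∀ t ∈ (T : Subgroup G), t • q1 = q1 := fun t ht => by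
      rw [hq1, MulAction.Quotient.smul_coe, smul_eq_mul, mul_one, QuotientGroup.eq, mul_one]
      exact inv_mem (hTN ht)
    rw [Finset.prod_eq_single
      (Quotient.mk'' q1 : MulAction.orbitRel.Quotient ↥(T : Subgroup G) (G ⧸ (normalizer (W : Set G))))]
    · have he : (Finset.univ.filter fun q => (Quotient.mk'' q :
          MulAction.orbitRel.Quotient ↥(T : Subgroup G) (G ⧸ (normalizer (W : Set G)))) = Quotient.mk'' q1) = {q1} := by
        ext q
        simp only [Finset.mem_filter, Finset.mem_univ, true_and, Finset.mem_singleton]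
        refine ⟨fun h => ?_, fun h => by rw [h]⟩
        obtain ⟨t, ht⟩ := Quotient.eq''.1 h
        rw [← ht]
        exact hfix t t.2
      rw [he, Finset.prod_singleton]
      show φ _ = _
      have hsN : s q1 ∈ (normalizer (W : Set G)) := by
        have := QuotientGroup.eq.1 (hs q1)
        rw [mul_one, inv_mem_iff] at this
        exact this
      have e : (⟨_, hmem (x : G) q1⟩ : ↥(normalizer (W : Set G))) = ⟨s q1, hsN⟩⁻¹ * ⟨x, hTN x.2⟩ * ⟨s q1, hsN⟩ := by
        refine Subtype.ext ?_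
        show (s q1)⁻¹ * ((x : G) * s ((x : G)⁻¹ • q1)) = (s q1)⁻¹ * x * s q1
        rw [hfix _ (inv_mem x.2), mul_assoc]
      rw [e, map_mul, map_mul, map_inv, mul_comm, ← mul_assoc, mul_inv_cancel, one_mul]
    · intro ω _ hω
      obtain ⟨q0, rfl⟩ := Quotient.mk''_surjective ω
      set R := MulAction.stabilizer ↥(T : Subgroup G) q0 with hR
      have hbad : ¬ W.subgroupOf (T : Subgroup G) ≤ R := by
        intro hle
        apply hω
        have hWN : W.map (MulAut.conj (s q0)⁻¹).toMonoidHom ≤ (normalizer (W : Set G)) := by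
          rintro _ ⟨w, hw, rfl⟩
          have hm := hmem w q0
          have hfx : (w : G)⁻¹ • q0 = q0 :=
            hle (x := ⟨w⁻¹, inv_mem (S.le hw)⟩) (W.inv_mem hw)
          rw [hfx] at hm
          simpa [mul_assoc] using hm
        have h2W : IsPGroup 2 ↥(W.map (MulAut.conj (s q0)⁻¹).toMonoidHom) :=
          (IsPGroup.of_card (p := 2) S.card_W).map _
        obtain ⟨Q, hQ⟩ := (h2W.comap_subtype (K := (normalizer (W : Set G)))).exists_le_sylow
        obtain ⟨n, hn⟩ := MulAction.exists_smul_eq ↥(normalizer (W : Set G)) (T.subtype hTN) Q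
        have hT' : W.map (MulAut.conj ((n : G)⁻¹ * (s q0)⁻¹)).toMonoidHom ≤ (T : Subgroup G) := by
          rintro _ ⟨w, hw, rfl⟩
          have hxQ : (⟨(s q0)⁻¹ * w * s q0, hWN ⟨w, hw, by simp⟩⟩ : ↥(normalizer (W : Set G))) ∈ (Q : Subgroup ↥(normalizer (W : Set G))) :=
            hQ ⟨w, hw, by simp⟩
          rw [← hn, Sylow.coe_subgroup_smul, Subgroup.mem_pointwise_smul_iff_inv_smul_mem] at hxQ
          simpa [MulAut.smul_def, Subgroup.mem_subgroupOf, mul_assoc] using hxQ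
        have hW' := (S.weakly_closed hT').1
        have hgN : (n : G)⁻¹ * (s q0)⁻¹ ∈ (normalizer (W : Set G)) := Subgroup.mem_normalizer_iff.2 fun w => by
          constructor
          · intro hw
            exact hW'.le (Subgroup.mem_map_of_mem _ hw)
          · intro hw
            have hw' := hW'.ge hw
            rw [Subgroup.mem_map_equiv, MulAut.conj_symm_apply] at hw'
            simpa [mul_assoc] using hw'
        have hs0 : s q0 ∈ (normalizer (W : Set G)) := by
          have := (normalizer (W : Set G)).mul_mem n.2 hgN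
          rw [mul_inv_cancel_left, inv_mem_iff] at this
          exact this
        refine congrArg Quotient.mk'' ?_
        rw [← hs q0, hq1, QuotientGroup.eq, mul_one]
        exact inv_mem hs0
      letI := Fintype.ofFinite (↥(T : Subgroup G) ⧸ R)
      let e : ↥(T : Subgroup G) ⧸ R → G ⧸ (normalizer (W : Set G)) := MulAction.ofQuotientStabilizer ↥(T : Subgroup G) q0
      have he : ∀ (t : ↥(T : Subgroup G)) (q : ↥(T : Subgroup G) ⧸ R), e (t • q) = (t : G) • e q :=
        fun t q => MulAction.ofQuotientStabilizer_smul ↥(T : Subgroup G) q0 t q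
      let f : ↥(T : Subgroup G) → ↥(T : Subgroup G) ⧸ R → Multiplicative (ZMod 2) :=
        fun t q => F (t : G) (e q)
      have hf : IsCoc f := fun a b q => by
        show F ((a : G) * b) (e q) = F (a : G) (e q) * F (b : G) (e (a⁻¹ • q))
        rw [he, hF]
        rfl
      have h0 : e ((1 : ↥(T : Subgroup G)) : ↥(T : Subgroup G) ⧸ R) = q0 := one_smul _ q0
      have hval : ∀ h : ↥(T : Subgroup G), h ∈ R → ∀ hm : (s q0)⁻¹ * h * s q0 ∈ (normalizer (W : Set G)),
          f h ((1 : ↥(T : Subgroup G)) : ↥(T : Subgroup G) ⧸ R) = φ ⟨(s q0)⁻¹ * h * s q0, hm⟩ := by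
        intro h hh hm
        show F (h : G) (e _) = _
        rw [h0]
        refine congrArg φ (Subtype.ext ?_)
        show (s q0)⁻¹ * ((h : G) * s ((h : G)⁻¹ • q0)) = (s q0)⁻¹ * h * s q0
        rw [show (h : G)⁻¹ • q0 = q0 from R.inv_mem hh, mul_assoc]
      have hbig : Nat.card ↥(W.subgroupOf (T : Subgroup G) ⊓ R) = 2 ^ 10 →
          ∀ h ∈ W.subgroupOf (T : Subgroup G) ⊓ R,
            f h ((1 : ↥(T : Subgroup G)) : ↥(T : Subgroup G) ⧸ R) = 1 := by
        intro hc h hh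
        have hN : ∀ w ∈ (W.subgroupOf (T : Subgroup G) ⊓ R).map (T : Subgroup G).subtype,
            (s q0)⁻¹ * w * s q0 ∈ (normalizer (W : Set G)) := by
          rintro _ ⟨v, hv, rfl⟩
          have hm := hmem (v : G) q0
          rw [show (v : G)⁻¹ • q0 = q0 from R.inv_mem hv.2, ← mul_assoc] at hm
          exact hm
        rw [hval h hh.2 (hN _ (Subgroup.mem_map_of_mem _ hh))]
        refine hker ⟨_, hN _ (Subgroup.mem_map_of_mem _ hh)⟩
          (S.centralizes_of_index_two ?_ ?_ hN _ (Subgroup.mem_map_of_mem _ hh))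
        · rintro _ ⟨v, hv, rfl⟩; exact hv.1
        · rw [Subgroup.card_map_of_injective (Subgroup.subtype_injective _), hc]
      refine Eq.trans ?_ (prod_eq_one_of_not_le H hA h2 hf hbad hbig x)
      refine (Finset.prod_bij (fun q _ => e q) (fun q _ => ?_)
        (fun a _ b _ h => MulAction.injective_ofQuotientStabilizer ↥(T : Subgroup G) q0 h)
        (fun y hy => ?_) fun q _ => rfl).symm
      · simp only [Finset.mem_filter, Finset.mem_univ, true_and]
        exact Quotient.eq''.2 (MulAction.ofQuotientStabilizer_mem_orbit ↥(T : Subgroup G) q0 q)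
      · simp only [Finset.mem_filter, Finset.mem_univ, true_and] at hy
        obtain ⟨t, ht⟩ := Quotient.eq''.1 hy
        exact ⟨(t : ↥(T : Subgroup G) ⧸ R), Finset.mem_univ _, ht⟩
    · intro h; exact absurd (Finset.mem_univ _) h
  -- `φ` is nontrivial on `T`
  obtain ⟨t, ht⟩ : ∃ t : ↥(T : Subgroup G), φ ⟨t, hTN t.2⟩ ≠ 1 := by
    by_contra hcon
    push Not at hcon
    have hle : (T : Subgroup G).subgroupOf (normalizer (W : Set G)) ≤ φ.ker := fun a ha => hcon ⟨a, ha⟩
    have hd := Subgroup.index_dvd_of_le hle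
    rw [Subgroup.index_ker, MonoidHom.range_eq_top_of_surjective φ hφ, Subgroup.card_top, h2] at hd
    exact (T.subtype hTN).not_dvd_index hd
  refine ⟨(MonoidHom.transfer φ).ker, ?_⟩
  rw [Subgroup.index_ker]
  refine le_antisymm ((Subgroup.card_le_card_group _).trans h2.le) ?_
  haveI : Nontrivial ↥(MonoidHom.transfer φ).range := ⟨⟨⟨_, (t : G), rfl⟩, 1, fun e => ht (by
    rw [← key t, ← htr]
    exact congrArg Subtype.val e)⟩⟩
  exact Finite.one_lt_card

end Main

end CfsgLib.RudvalisSylow
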